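/- U4 tower (row S5210): the Sylow subgroup of the unitary group of degree four in coordinates. -/
import Cfsg.Agent.H90.U5Tri
import Mathlib.Algebra.QuadraticAlgebra.Basic

set_option autoImplicit false
set_option linter.unusedSectionVars false
set_option linter.unusedSimpArgs false
set_option linter.unusedVariables false

open Subgroup H90.RF
open H90.U5 (BF DD ψ)

namespace H28.U4

variable {K : Type*} [Field K]

/-- The unitriangular matrices with rows `(1, a, c, d)`, `(0, 1, b, σc - σa b)`, `(0, 0, 1, -σa)`, `(0, 0, 0, 1)`;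
the rows preserve the skew hermitian form `x₁ σy₄ + x₂ σy₃ - x₃ σy₂ - x₄ σy₁`. -/
@[ext] structure Co (T : BF K) where
  (a b c d : K)
  hb : T.σ b = b
  hd : d - T.σ d = a * T.σ c - c * T.σ a

variable {T : BF K}

namespace Co

instance instMulCo : Mul (Co T) := ⟨fun u w => {
  a := u.a + w.a
  b := u.b + w.b
  c := u.c + w.c + u.a * w.b
  d := u.d + w.d + u.a * (T.σ w.c - T.σ w.a * w.b) - u.c * T.σ w.a
  hb := by rw [map_add, u.hb, w.hb]
  hd := by
    simp only [map_add, map_sub, map_mul, T.sq, w.hb]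
    linear_combination u.hd + w.hd }⟩

instance instInvCo : Inv (Co T) := ⟨fun u => {
  a := -u.a
  b := -u.b
  c := u.a * u.b - u.c
  d := -T.σ u.d
  hb := by rw [map_neg, u.hb]
  hd := by
    simp only [map_neg, map_sub, map_mul, T.sq, u.hb]
    linear_combination u.hd }⟩

instance instOneCo : One (Co T) := ⟨⟨0, 0, 0, 0, by simp, by simp⟩⟩

@[simp] theorem mul_a (u w : Co T) : (u * w).a = u.a + w.a := rfl
@[simp] theorem mul_b (u w : Co T) : (u * w).b = u.b + w.b := rfl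
@[simp] theorem mul_c (u w : Co T) : (u * w).c = u.c + w.c + u.a * w.b := rfl
@[simp] theorem mul_d (u w : Co T) :
    (u * w).d = u.d + w.d + u.a * (T.σ w.c - T.σ w.a * w.b) - u.c * T.σ w.a := rfl
@[simp] theorem inv_a (u : Co T) : u⁻¹.a = -u.a := rfl
@[simp] theorem inv_b (u : Co T) : u⁻¹.b = -u.b := rfl
@[simp] theorem inv_c (u : Co T) : u⁻¹.c = u.a * u.b - u.c := rfl
@[simp] theorem inv_d (u : Co T) : u⁻¹.d = -T.σ u.d := rfl
@[simp] theorem one_a : (1 : Co T).a = 0 := rfl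
@[simp] theorem one_b : (1 : Co T).b = 0 := rfl
@[simp] theorem one_c : (1 : Co T).c = 0 := rfl
@[simp] theorem one_d : (1 : Co T).d = 0 := rfl

@[simp] theorem σb (u : Co T) : T.σ u.b = u.b := u.hb
/-- rewriting form of the constraint -/
theorem σd (u : Co T) : T.σ u.d = u.d - u.a * T.σ u.c + u.c * T.σ u.a := by linear_combination -u.hd

instance instGroupCo : Group (Co T) := Group.ofLeftAxioms
  (fun u w x => by
    ext <;> simp only [mul_a, mul_b, mul_c, mul_d, map_add, map_mul, T.sq, σb] <;> ring)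
  (fun u => by ext <;> simp)
  (fun u => by ext <;> simp [σd] <;> ring)

instance instFiniteCo [Finite K] : Finite (Co T) :=
  Finite.of_injective (fun u : Co T => (u.a, u.b, u.c, u.d)) fun u w h => by ext <;> simp_all

instance instDecEqCo [DecidableEq K] : DecidableEq (Co T) := fun u w =>
  decidable_of_iff (u.a = w.a ∧ u.b = w.b ∧ u.c = w.c ∧ u.d = w.d) Co.ext_iff.symm

instance instFintypeCo [DecidableEq K] [Fintype K] : Fintype (Co T) :=
  Fintype.ofEquiv {x : K × K × K × K // T.σ x.2.1 = x.2.1 ∧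
      x.2.2.2 - T.σ x.2.2.2 = x.1 * T.σ x.2.2.1 - x.2.2.1 * T.σ x.1}
    ⟨fun x => ⟨x.1.1, x.1.2.1, x.1.2.2.1, x.1.2.2.2, x.2.1, x.2.2⟩,
      fun u => ⟨(u.a, u.b, u.c, u.d), u.hb, u.hd⟩, fun _ => rfl, fun _ => rfl⟩

/-- conjugation by `n₁` on `Q = {b = 0}` -/
def nu1 (u : Co T) : Co T :=
  ⟨u.c, 0, -u.a, u.d, by simp, by simp only [map_neg]; linear_combination u.hd⟩

/-- conjugation by `n₂` on `A = {a = 0}` -/
def nu2 (u : Co T) : Co T :=
  ⟨0, u.d - u.a * T.σ u.c, -T.σ u.c, u.b,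
    by simp only [map_sub, map_mul, T.sq]; linear_combination -u.hd, by simp⟩

/-- the image in `W = Q / Z` -/
def π (u : Co T) : K × K := (u.a, u.c)

end Co

variable (T)

/-- root element -/
def xa (t : K) : Co T := ⟨t, 0, 0, 0, by simp, by simp⟩
/-- root element -/
def xb (l : K) (h : T.σ l = l) : Co T := ⟨0, l, 0, 0, h, by simp⟩
/-- root element -/
def xc (t : K) : Co T := ⟨0, 0, t, 0, by simp, by simp⟩
/-- root element -/
def xd (l : K) (h : T.σ l = l) : Co T := ⟨0, 0, 0, l, by simp, by simp [h]⟩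
/-- an element of `A` -/
def va (b c d : K) (hb : T.σ b = b) (hd : T.σ d = d) : Co T := ⟨0, b, c, d, hb, by simp [hd]⟩
/-- an element of `Q` with given image in `W` -/
def w1 (w : K × K) : Co T := ⟨w.1, 0, w.2, w.1 * T.σ w.2, by simp, by simp [T.sq, mul_comm]⟩

/-- the diagonal action: conjugation by `diag (x y, y, σy⁻¹, σ(x y)⁻¹)` -/
def dg (x y : K) (u : Co T) : Co T where
  a := x * u.a
  b := y * T.σ y * u.b
  c := x * (y * T.σ y) * u.c
  d := x * T.σ x * (y * T.σ y) * u.d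
  hb := by simp only [map_mul, T.sq, u.hb]; ring
  hd := by simp only [map_mul, T.sq]; linear_combination x * T.σ x * (y * T.σ y) * u.hd

/-- the field automorphisms -/
def fa [Finite K] (φ : RingAut K) (u : Co T) : Co T :=
  ⟨φ u.a, φ u.b, φ u.c, φ u.d, by rw [← T.comm, u.hb], by simpa [T.comm] using congrArg φ u.hd⟩

/-- the standard automorphisms -/
def sd [Finite K] (δ : DD K) (u : Co T) : Co T := dg T δ.left.1 δ.left.2 (fa T δ.right u)

/-- the torus of `SL₂(k)` (for `σ s = s`) -/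
def t1 (s : Kˣ) : Kˣ × Kˣ := (s⁻¹, s)
/-- the torus of `SL₂(K)` -/
def t2 (s : Kˣ) : Kˣ × Kˣ := (s ^ 2, s⁻¹)

/-- `Z = Z(S)` -/
def sZ : Subgroup (Co T) where
  carrier := {u | u.a = 0 ∧ u.b = 0 ∧ u.c = 0}
  one_mem' := by simp
  mul_mem' := fun {c d} hc hd => by simp_all
  inv_mem' := fun {c} hc => by simp_all
theorem mem_sZ {u : Co T} : u ∈ sZ T ↔ u.a = 0 ∧ u.b = 0 ∧ u.c = 0 := Iff.rfl

/-- `D = S' = Z₂(S) = A ∩ Q` -/
def sD : Subgroup (Co T) where
  carrier := {u | u.a = 0 ∧ u.b = 0}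
  one_mem' := by simp
  mul_mem' := fun {c d} hc hd => by simp_all
  inv_mem' := fun {c} hc => by simp_all
theorem mem_sD {u : Co T} : u ∈ sD T ↔ u.a = 0 ∧ u.b = 0 := Iff.rfl

/-- the abelian subgroup `A` of order `q⁴` -/
def sA : Subgroup (Co T) where
  carrier := {u | u.a = 0}
  one_mem' := by simp
  mul_mem' := fun {c d} hc hd => by simp_all
  inv_mem' := fun {c} hc => by simp_all
theorem mem_sA {u : Co T} : u ∈ sA T ↔ u.a = 0 := Iff.rfl

/-- `Q = q^(1+4)` -/
def sQ : Subgroup (Co T) where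
  carrier := {u | u.b = 0}
  one_mem' := by simp
  mul_mem' := fun {c d} hc hd => by simp_all
  inv_mem' := fun {c} hc => by simp_all
theorem mem_sQ {u : Co T} : u ∈ sQ T ↔ u.b = 0 := Iff.rfl

/-- the image of `Z` under `n₂` -/
def sX : Subgroup (Co T) where
  carrier := {u | u.a = 0 ∧ u.c = 0 ∧ u.d = 0}
  one_mem' := by simp
  mul_mem' := fun {c d} hc hd => by simp_all
  inv_mem' := fun {c} hc => by simp_all
theorem mem_sX {u : Co T} : u ∈ sX T ↔ u.a = 0 ∧ u.c = 0 ∧ u.d = 0 := Iff.rfl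

/-- the image of `D` under `n₂` -/
def sH : Subgroup (Co T) where
  carrier := {u | u.a = 0 ∧ u.d = 0}
  one_mem' := by simp
  mul_mem' := fun {c d} hc hd => by simp_all
  inv_mem' := fun {c} hc => by simp_all
theorem mem_sH {u : Co T} : u ∈ sH T ↔ u.a = 0 ∧ u.d = 0 := Iff.rfl

/-- the series for the essential subgroups -/
def zA : ℕ → Subgroup (Co T)
  | 0 => ⊥ | 1 => sZ T | 2 => sD T | _ => sA T

/-- a characteristic series of `S` -/
def z0 : ℕ → Subgroup (Co T)
  | 0 => ⊥ | 1 => sZ T | 2 => sD T | 3 => sA T | _ => ⊤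

/-! ### `W = Q / Z = K × K` -/

/-- the commutator form -/
def bf (w w' : K × K) : K :=
  w.1 * T.σ w'.2 + T.σ w.1 * w'.2 - (w'.1 * T.σ w.2 + T.σ w'.1 * w.2)

/-- squares in characteristic two -/
def qf (w : K × K) : K := w.1 * T.σ w.2 + T.σ w.1 * w.2

/-- upper unipotent -/
def ub (b : K) : Equiv.Perm (K × K) :=
  ⟨fun w => (w.1, w.2 + b * w.1), fun w => (w.1, w.2 - b * w.1), fun w => by simp, fun w => by simp⟩
/-- lower unipotent -/
def lb (b : K) : Equiv.Perm (K × K) :=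
  ⟨fun w => (w.1 + b * w.2, w.2), fun w => (w.1 - b * w.2, w.2), fun w => by simp, fun w => by simp⟩
/-- the outer unipotent maps -/
def tg (γ : K) : Equiv.Perm (K × K) :=
  ⟨fun w => (w.1, w.2 + γ * T.σ w.1), fun w => (w.1, w.2 - γ * T.σ w.1), fun w => by simp, fun w => by simp⟩
/-- the torus -/
def hs (s : Kˣ) : Equiv.Perm (K × K) :=
  ⟨fun w => ((s⁻¹ : Kˣ) * w.1, s * w.2), fun w => (s * w.1, (s⁻¹ : Kˣ) * w.2), fun w => by simp,
    fun w => by simp⟩
/-- the Weyl element -/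
def nb : Equiv.Perm (K × K) := ⟨fun w => (w.2, -w.1), fun w => (-w.2, w.1), fun w => by simp, fun w => by simp⟩
/-- the standard automorphisms on `W` -/
def sdW (δ : DD K) : Equiv.Perm (K × K) :=
  ⟨fun w => (δ.left.1 * δ.right w.1, δ.left.1 * (δ.left.2 * T.σ δ.left.2) * δ.right w.2),
    fun w => (δ.right.symm (w.1 / δ.left.1), δ.right.symm (w.2 / (δ.left.1 * (δ.left.2 * T.σ δ.left.2)))),
    fun w => by
      have : T.σ δ.left.2 ≠ 0 := (map_ne_zero _).2 (Units.ne_zero _)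
      ext
      · simp
      · simp only; rw [mul_div_cancel_left₀ _ (by simp [this]), RingEquiv.symm_apply_apply],
    fun w => by
      have : T.σ δ.left.2 ≠ 0 := (map_ne_zero _).2 (Units.ne_zero _)
      ext
      · simp only [RingEquiv.apply_symm_apply]; field_simp
      · simp only [RingEquiv.apply_symm_apply]; field_simp⟩

variable {T}

theorem ub_apply (b : K) (w : K × K) : ub b w = (w.1, w.2 + b * w.1) := rfl
theorem lb_apply (b : K) (w : K × K) : lb b w = (w.1 + b * w.2, w.2) := rfl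
theorem tg_apply (γ : K) (w : K × K) : tg T γ w = (w.1, w.2 + γ * T.σ w.1) := rfl
theorem hs_apply (s : Kˣ) (w : K × K) : hs s w = ((s : K)⁻¹ * w.1, s * w.2) := by
  rw [← Units.val_inv_eq_inv_val]; rfl
theorem nb_apply (w : K × K) : nb w = (w.2, -w.1) := rfl
theorem sdW_apply (δ : DD K) (w : K × K) : sdW T δ w =
    (δ.left.1 * δ.right w.1, δ.left.1 * (δ.left.2 * T.σ δ.left.2) * δ.right w.2) := rfl

/-- `x⁻¹ G x` -/
def cW {X : Type*} (x : Equiv.Perm X) (G : Subgroup (Equiv.Perm X)) : Subgroup (Equiv.Perm X) :=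
  G.comap (MulAut.conj x).toMonoidHom
theorem mem_cW {X : Type*} {x g : Equiv.Perm X} {G : Subgroup (Equiv.Perm X)} :
    g ∈ cW x G ↔ x * g * x⁻¹ ∈ G := Iff.rfl

theorem au_inv {P : Type*} [Group P] {X : Subgroup P} {α : Equiv.Perm P} (h : Au X α) : Au X ⇑α⁻¹ := by
  have m : ∀ c ∈ X, α⁻¹ c ∈ X := fun c hc => by
    obtain ⟨d, hd, rfl⟩ := h.sur c hc
    simpa using hd
  refine ⟨m, fun c hc d hd => α.injective ?_, fun c _ e => ?_, fun c hc => ⟨α c, h.mem c hc, by simp⟩⟩
  · rw [h.mul _ (m c hc) _ (m d hd)]; simp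
  · rw [← h.one, ← e]; simp

variable (T) in
/-- the group induced on `W` -/
def gW (Y : Subgroup (Equiv.Perm (Co T))) : Subgroup (Equiv.Perm (K × K)) where
  carrier := {g | ∃ α ∈ Y, Au (sQ T) α ∧ ∀ u ∈ sQ T, (α u).π = g u.π}
  one_mem' := ⟨1, one_mem _, Au.id' _, fun _ _ => rfl⟩
  mul_mem' := fun ⟨α, hα, a, e⟩ ⟨β, hβ, b, f⟩ => ⟨α * β, mul_mem hα hβ, a.comp b, fun u hu => by
    rw [Equiv.Perm.mul_apply, Equiv.Perm.mul_apply, e _ (b.mem u hu), f u hu]⟩
  inv_mem' := fun {g} ⟨α, hα, a, e⟩ => ⟨α⁻¹, inv_mem hα, au_inv a, fun u hu => by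
    have := e _ ((au_inv a).mem u hu)
    simp only [Equiv.Perm.coe_inv, Equiv.apply_symm_apply] at this
    simp [this]⟩

/-- conjugation on a normal subgroup, as permutations -/
noncomputable def iS {P : Type*} [Group P] (X : Subgroup P) [X.Normal] : P →* Equiv.Perm P :=
  H92.af.comp (MulAut.conjNormal (H := X))

theorem iS_mem {P : Type*} [Group P] {X : Subgroup P} [X.Normal] (s : P) {c : P} (h : c ∈ X) :
    iS X s c = s * c * s⁻¹ := H92.af_of_mem _ h

theorem iS_not_mem {P : Type*} [Group P] {X : Subgroup P} [X.Normal] (s : P) {c : P} (h : c ∉ X) :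
    iS X s c = c := H92.af_of_not_mem _ h

/-! ### The two small fields -/

instance fact9 : Fact (∀ r : ZMod 3, r ^ 2 ≠ 2 + 0 * r) := ⟨by decide⟩
instance fact4 : Fact (∀ r : ZMod 2, r ^ 2 ≠ 1 + 1 * r) := ⟨by decide⟩

/-- the field with nine elements, `i² = -1` -/
abbrev F9 : Type := QuadraticAlgebra (ZMod 3) 2 0
/-- the field with four elements, `ω² = 1 + ω` -/
abbrev F4 : Type := QuadraticAlgebra (ZMod 2) 1 1

instance fin9 : Fintype F9 := Fintype.ofEquiv _ (QuadraticAlgebra.equivProd 2 0).symm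
instance fin4 : Fintype F4 := Fintype.ofEquiv _ (QuadraticAlgebra.equivProd 1 1).symm
instance char9 : CharP F9 3 := charP_of_injective_algebraMap' (ZMod 3) 3
instance char4 : CharP F4 2 := charP_of_injective_algebraMap' (ZMod 2) 2

/-- `𝔽₉` with its involution -/
def T9 : BF F9 := ⟨starRingEnd F9, star_star, ⟨0, 1⟩, by decide⟩
/-- `𝔽₄` with its involution -/
def T4 : BF F4 := ⟨starRingEnd F4, star_star, ⟨0, 1⟩, by decide⟩

end H28.U4
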