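/- U4 tower (row S5210): formulas. -/
import Cfsg.Agent.H28.U4Co

set_option autoImplicit false
set_option linter.unusedSectionVars false
set_option linter.unusedSimpArgs false
set_option linter.unusedVariables false
set_option linter.unnecessarySeqFocus false

open Subgroup H90.RF
open H90.U5 (BF DD ψ normal_of_cm)

namespace H28.U4

variable {K : Type*} [Field K] {T : BF K}

@[simp] theorem cm_a (s m : Co T) : (cm s m).a = 0 := by simp [cm]
@[simp] theorem cm_b (s m : Co T) : (cm s m).b = 0 := by simp [cm]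
theorem cm_c (s m : Co T) : (cm s m).c = s.a * m.b - m.a * s.b := by simp [cm]; ring
/-- the last coordinate of a commutator -/
theorem cm_d (s m : Co T) : (cm s m).d = bf T s.π m.π + m.a * T.σ m.a * s.b + s.a * T.σ s.a * m.b -
    (s.a * T.σ m.a + T.σ s.a * m.a) * m.b := by
  simp [cm, Co.σd, bf, Co.π]; ring
theorem cm_dQ {s m : Co T} (hs : s.b = 0) (hm : m.b = 0) : (cm s m).d = bf T s.π m.π := by
  simp [cm_d, hs, hm]
/-- `m ∈ A` -/
theorem cm_dA (s : Co T) {m : Co T} (hm : m.a = 0) :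
    (cm s m).d = s.a * T.σ m.c + T.σ s.a * m.c + s.a * T.σ s.a * m.b := by
  simp [cm_d, hm, bf, Co.π]
/-- `s ∈ A`, `m` arbitrary -/
theorem cm_dA' {s : Co T} (hs : s.a = 0) (m : Co T) :
    (cm s m).d = m.a * T.σ m.a * s.b - (m.a * T.σ s.c + T.σ m.a * s.c) := by
  simp [cm_d, hs, bf, Co.π]; ring
theorem cm_D (s m : Co T) : cm s m ∈ sD T := ⟨cm_a s m, cm_b s m⟩
theorem cm_Z (s : Co T) {m : Co T} (hm : m ∈ sD T) : cm s m ∈ sZ T :=
  ⟨cm_a s m, cm_b s m, by simp [cm_c, hm.1, hm.2]⟩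
theorem cm_Z' {s : Co T} (hs : s ∈ sD T) (m : Co T) : cm s m ∈ sZ T :=
  ⟨cm_a s m, cm_b s m, by simp [cm_c, hs.1, hs.2]⟩
theorem cm_Q {s m : Co T} (hs : s ∈ sQ T) (hm : m ∈ sQ T) : cm s m ∈ sZ T :=
  ⟨cm_a s m, cm_b s m, by rw [mem_sQ] at hs hm; simp [cm_c, hs, hm]⟩
theorem eq_of_Z {u w : Co T} (hu : u ∈ sZ T) (hw : w ∈ sZ T) (h : u.d = w.d) : u = w :=
  Co.ext (hu.1.trans hw.1.symm) (hu.2.1.trans hw.2.1.symm) (hu.2.2.trans hw.2.2.symm) h
theorem cm_one (s : Co T) {m : Co T} (hm : m ∈ sZ T) : cm s m = 1 :=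
  eq_of_Z (cm_Z s ⟨hm.1, hm.2.1⟩) (one_mem _) (by simp [cm_dA s hm.1, hm.2.1, hm.2.2])
theorem comm_Z (s : Co T) {m : Co T} (hm : m ∈ sZ T) : s * m = m * s := cm_eq_one.1 (cm_one s hm)
theorem comm_A {s m : Co T} (hs : s ∈ sA T) (hm : m ∈ sA T) : s * m = m * s := by
  rw [mem_sA] at hs hm
  ext <;> simp [hs, hm] <;> ring
theorem A_d {u : Co T} (hu : u.a = 0) : T.σ u.d = u.d := by simp [Co.σd, hu]
theorem mul_A {u w : Co T} (hu : u.a = 0) (hw : w.a = 0) :
    (u * w).b = u.b + w.b ∧ (u * w).c = u.c + w.c ∧ (u * w).d = u.d + w.d := by simp [hu, hw]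
/-- the action of `S` on `A` -/
theorem cj_A (s : Co T) {u : Co T} (hu : u.a = 0) : (s * u * s⁻¹).a = 0 ∧ (s * u * s⁻¹).b = u.b ∧
    (s * u * s⁻¹).c = u.c + s.a * u.b ∧
    (s * u * s⁻¹).d = u.d + (s.a * T.σ u.c + T.σ s.a * u.c) + s.a * T.σ s.a * u.b := by
  refine ⟨by simp [hu], by simp, by simp [hu]; ring, by simp [hu, Co.σd]; ring⟩
theorem cj_xa (s : Co T) {u : Co T} (hu : u.a = 0) : s * u * s⁻¹ = xa T s.a * u * (xa T s.a)⁻¹ := by
  obtain ⟨a, b, c, d⟩ := cj_A s hu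
  obtain ⟨a', b', c', d'⟩ := cj_A (xa T s.a) hu
  exact Co.ext (a.trans a'.symm) (b.trans b'.symm) (c.trans c'.symm) (d.trans d'.symm)
theorem xa_add (s t : K) : xa T (s + t) = xa T s * xa T t := by ext <;> simp [xa]
theorem xa_neg (t : K) : xa T (-t) = (xa T t)⁻¹ := by ext <;> simp [xa]
theorem xc_add (s t : K) : xc T (s + t) = xc T s * xc T t := by ext <;> simp [xc]
/-- the action of `S` on `W` -/
theorem cj_Q (s : Co T) {u : Co T} (hu : u ∈ sQ T) : (s⁻¹ * u * s).π = ub s.b u.π := by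
  rw [mem_sQ] at hu
  ext <;> simp [Co.π, ub_apply, hu]; ring
theorem cj_Q' (s : Co T) {u : Co T} (hu : u ∈ sQ T) : (s * u * s⁻¹).π = ub (-s.b) u.π := by
  simpa using cj_Q s⁻¹ hu
/-- `x_b` does not change the last coordinate -/
theorem cj_xb {l : K} (h : T.σ l = l) {u : Co T} (hu : u ∈ sQ T) :
    ((xb T l h)⁻¹ * u * xb T l h).d = u.d := by
  simp [xb]
theorem cj_QQ {s u : Co T} (hs : s ∈ sQ T) (hu : u ∈ sQ T) :
    (s * u * s⁻¹).π = u.π ∧ (s * u * s⁻¹).d = u.d + bf T s.π u.π := by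
  rw [mem_sQ] at hs hu
  exact ⟨by ext <;> simp [Co.π, hs, hu], by simp [hs, hu, Co.σd, bf, Co.π]; ring⟩
theorem π_mul {u w : Co T} (hw : w ∈ sQ T) : (u * w).π = u.π + w.π := by
  rw [mem_sQ] at hw
  ext <;> simp [Co.π, hw]
theorem w1_mem (w : K × K) : w1 T w ∈ sQ T := rfl
@[simp] theorem w1_π (w : K × K) : (w1 T w).π = w := rfl
theorem Q_mod {u w : Co T} (hu : u ∈ sQ T) (hw : w ∈ sQ T) : u⁻¹ * w ∈ sZ T ↔ w.π = u.π := by
  rw [mem_sQ] at hu hw
  simp only [mem_sZ, Co.π, Prod.mk.injEq, Co.mul_a, Co.inv_a, Co.mul_b, Co.inv_b, Co.mul_c, Co.inv_c, hu, hw]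
  exact ⟨fun h => ⟨by linear_combination h.1, by linear_combination h.2.2⟩,
    fun h => ⟨by linear_combination h.1, by simp, by linear_combination h.2⟩⟩
theorem eq_of_Q {u w : Co T} (hu : u ∈ sQ T) (hw : w ∈ sQ T) (h : u.π = w.π) (hd : u.d = w.d) : u = w :=
  Co.ext (congrArg Prod.fst h) (hu.trans hw.symm) (congrArg Prod.snd h) hd
theorem bf_fix (w w' : K × K) : T.σ (bf T w w') = bf T w w' := by simp [bf, T.sq]; ring
theorem bf_self (w : K × K) : bf T w w = 0 := by simp [bf]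
theorem bf_add (w x y : K × K) : bf T w (x + y) = bf T w x + bf T w y := by simp [bf]; ring
theorem bf_swap (w x : K × K) : bf T w x = -bf T x w := by simp [bf]
theorem bf_smul {l : K} (h : T.σ l = l) (w x : K × K) : bf T w (l • x) = l * bf T w x := by
  simp [bf, h]; ring
theorem bf_nondeg {w : K × K} (h : ∀ x, bf T w x = 0) : w = 0 :=
  Prod.ext (T.lin_zero (x := T.σ w.1) (y := w.1) fun t => by
      have := h (0, t); simp [bf] at this; linear_combination this).2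
    (T.lin_zero (x := T.σ w.2) (y := w.2) fun t => by
      have := h (t, 0); simp only [bf] at this; simp at this; linear_combination -this).2
/-- a `k`-linear form on `K` -/
theorem exists_tr_form (f : K → K) (ha : ∀ x y, f (x + y) = f x + f y)
    (hl : ∀ l x, T.σ l = l → f (l * x) = l * f x) (hf : ∀ x, T.σ (f x) = f x) :
    ∃ γ, ∀ x, f x = x * T.σ γ + T.σ x * γ := by
  obtain ⟨a, b, e⟩ := T.exists_lin f ha fun l x => hl l x l.2
  have := T.lin_zero (x := T.σ b - a) (y := T.σ a - b) fun t => by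
    have := hf t
    rw [e, map_add, map_mul, map_mul, T.sq] at this
    linear_combination this
  exact ⟨b, fun x => by rw [e]; linear_combination -x * this.1⟩
theorem exists_tr_ne {γ : K} (h : γ ≠ 0) : ∃ t, t * T.σ γ + T.σ t * γ ≠ 0 := by
  by_contra! k
  exact h (T.lin_zero (x := T.σ γ) (y := γ) fun t => by linear_combination k t).2
/-- every element of `Z` is a commutator in `Q` -/
theorem Z_cm {u : Co T} (hu : u ∈ sZ T) : ∃ t, u = cm (xa T 1) (xc T t) := by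
  obtain ⟨t, ht⟩ := T.exists_tr (A_d hu.1)
  exact ⟨t, eq_of_Z hu (cm_Q rfl rfl) (by rw [cm_dA _ rfl, ← ht]; simp [xa, xc, add_comm])⟩

theorem Z_le : sZ T ≤ sD T := fun _ h => ⟨h.1, h.2.1⟩
theorem D_le_A : sD T ≤ sA T := fun _ h => h.1
theorem D_le_Q : sD T ≤ sQ T := fun _ h => h.2
theorem Z_le_A : sZ T ≤ sA T := fun _ h => h.1
theorem Z_le_Q : sZ T ≤ sQ T := fun _ h => h.2.1

instance nZ : (sZ T).Normal := normal_of_cm fun s m hm => cm_Z s (Z_le hm)
instance nD : (sD T).Normal := normal_of_cm fun s m _ => cm_D s m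
instance nA : (sA T).Normal := normal_of_cm fun s m _ => D_le_A (cm_D s m)
instance nQ : (sQ T).Normal := normal_of_cm fun s m _ => D_le_Q (cm_D s m)
instance nz0 (j : ℕ) : (z0 T j).Normal := by unfold z0; split <;> infer_instance

theorem z0_mono (i : ℕ) : z0 T i ≤ z0 T (i + 1) := by
  rcases i with _ | _ | _ | _ | i
  exacts [bot_le, Z_le, D_le_A, le_top, le_rfl]

theorem z0_cm : ∀ i < 4, ∀ u ∈ z0 T (i + 1), ∀ s, cm s u ∈ z0 T i := by
  intro i hi u hu s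
  interval_cases i
  exacts [cm_one s hu, cm_Z s hu, cm_D s u, D_le_A (cm_D s u)]

theorem pow_a (u : Co T) (n : ℕ) : (u ^ n).a = n * u.a ∧ (u ^ n).b = n * u.b := by
  induction n with
  | zero => simp
  | succ n ih => rw [pow_succ, Co.mul_a, Co.mul_b, ih.1, ih.2]; push_cast; constructor <;> ring

theorem pow_A {u : Co T} (h : u.a = 0) (n : ℕ) : (u ^ n).c = n * u.c ∧ (u ^ n).d = n * u.d := by
  induction n with
  | zero => simp
  | succ n ih =>
    rw [pow_succ, Co.mul_c, Co.mul_d, ih.1, ih.2, (pow_a u n).1, h]; push_cast; constructor <;> simp <;> ring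

theorem pow_p_A (p : ℕ) [CharP K p] {u : Co T} (h : u ∈ sA T) : u ^ p = 1 := by
  rw [mem_sA] at h
  ext <;> simp [pow_a, pow_A h]

theorem pow_p (p : ℕ) [CharP K p] (u : Co T) : u ^ p ∈ sD T := ⟨by simp [pow_a], by simp [pow_a]⟩

theorem pgroup_Co (p : ℕ) [CharP K p] : IsPGroup p (Co T) := fun u =>
  ⟨2, by rw [sq, pow_mul]; exact pow_p_A p (D_le_A (pow_p p u))⟩

/-- squares in `Q` -/
theorem sq_Q (h2 : (2 : K) = 0) {u : Co T} (hu : u ∈ sQ T) : u * u ∈ sZ T ∧ (u * u).d = qf T u.π := by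
  rw [mem_sQ] at hu
  refine ⟨⟨by simp; linear_combination u.a * h2, by simp [hu], by simp [hu]; linear_combination u.c * h2⟩, ?_⟩
  simp [hu, qf, Co.π]; linear_combination (u.d - u.c * T.σ u.a) * h2

theorem cen_A : Cfsg.FusionSystem.centralizerIn ⊤ (sA T) ≤ sA T := fun s hs => by
  have h := cm_eq_one.2 (mem_centralizer_iff.1 hs.2 (xb T 1 (map_one _)) rfl).symm
  simpa [cm_c, xb, mem_sA] using congrArg Co.c h

theorem cen_Q : Cfsg.FusionSystem.centralizerIn ⊤ (sQ T) ≤ sQ T := fun s hs => by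
  have h := cm_eq_one.2 (mem_centralizer_iff.1 hs.2 (xa T 1) rfl).symm
  simpa [cm_c, xa, mem_sQ] using congrArg Co.c h

/-! ### Automorphisms -/

theorem nu1_π (u : Co T) : u.nu1.π = nb u.π := rfl
theorem nu1_pow {u : Co T} (hu : u ∈ sQ T) : u.nu1.nu1.nu1.nu1 = u := by
  rw [mem_sQ] at hu
  ext <;> simp [Co.nu1, hu]

theorem au_nu1 : Au (sQ T) Co.nu1 :=
  ⟨fun _ _ => rfl, fun u hu w hw => by
    rw [mem_sQ] at hu hw
    ext <;> simp [Co.nu1, hu, hw] <;> ring,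
    fun u hu e => by rw [← nu1_pow hu, e]; ext <;> simp [Co.nu1],
    fun u hu => ⟨u.nu1.nu1.nu1, rfl, nu1_pow hu⟩⟩

theorem nu2_A {u : Co T} (hu : u.a = 0) : u.nu2.a = 0 ∧ u.nu2.b = u.d ∧ u.nu2.c = -T.σ u.c ∧ u.nu2.d = u.b := by
  simp [Co.nu2, hu]

theorem nu2_nu2 {u : Co T} (hu : u ∈ sA T) : u.nu2.nu2 = u := by
  rw [mem_sA] at hu
  ext <;> simp [Co.nu2, hu, T.sq]

theorem au_nu2 : Au (sA T) Co.nu2 :=
  ⟨fun _ _ => rfl, fun u hu w hw => by
    rw [mem_sA] at hu hw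
    ext <;> simp [Co.nu2, hu, hw] <;> ring,
    fun u hu e => by rw [← nu2_nu2 hu, e]; ext <;> simp [Co.nu2], fun u hu => ⟨u.nu2, rfl, nu2_nu2 hu⟩⟩

theorem dg_mul (x y : K) (u w : Co T) : dg T x y (u * w) = dg T x y u * dg T x y w := by
  ext <;> simp [dg, T.sq] <;> ring

theorem dg_dg (x y x' y' : K) (u : Co T) : dg T x y (dg T x' y' u) = dg T (x * x') (y * y') u := by
  ext <;> simp [dg] <;> ring

theorem dg_one (u : Co T) : dg T 1 1 u = u := by ext <;> simp [dg]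

variable [Finite K]

theorem sd_mul (δ : DD K) (u w : Co T) : sd T δ (u * w) = sd T δ u * sd T δ w := by
  rw [sd, sd, sd, ← dg_mul]; congr 1
  ext <;> simp [fa, T.comm]

theorem sd_sd (δ δ' : DD K) (u : Co T) : sd T δ (sd T δ' u) = sd T (δ * δ') u := by
  ext <;> simp [sd, dg, fa, H90.U5.ψ_fst, H90.U5.ψ_snd, T.comm] <;> ring

theorem sd_one (u : Co T) : sd T 1 u = u := dg_one u

theorem sd_inl (x : Kˣ × Kˣ) (u : Co T) : sd T (SemidirectProduct.inl x) u = dg T x.1 x.2 u := rfl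

theorem au_sd (δ : DD K) : Au ⊤ (sd T δ) :=
  Au.of_inj (fun _ _ => trivial) (fun u _ w _ => sd_mul δ u w) fun u _ w _ e => by
    rw [← sd_one u, ← inv_mul_cancel δ, ← sd_sd, e, sd_sd, inv_mul_cancel, sd_one]

variable (T) in
/-- the standard automorphisms as a homomorphism -/
noncomputable def sdH : DD K →* MulAut (Co T) :=
  MonoidHom.mk' (fun δ => (au_sd δ).toTop) fun δ δ' => MulEquiv.ext fun u => (sd_sd δ δ' u).symm

theorem sdH_apply (δ : DD K) (u : Co T) : sdH T δ u = sd T δ u := rfl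

theorem sd_a (δ : DD K) (u : Co T) : (sd T δ u).a = δ.left.1 * δ.right u.a := rfl
theorem sd_b (δ : DD K) (u : Co T) : (sd T δ u).b = δ.left.2 * T.σ δ.left.2 * δ.right u.b := rfl
theorem sd_c (δ : DD K) (u : Co T) :
    (sd T δ u).c = δ.left.1 * (δ.left.2 * T.σ δ.left.2) * δ.right u.c := rfl
theorem sd_d (δ : DD K) (u : Co T) :
    (sd T δ u).d = δ.left.1 * T.σ δ.left.1 * (δ.left.2 * T.σ δ.left.2) * δ.right u.d := rfl
theorem sd_π (δ : DD K) (u : Co T) : (sd T δ u).π = sdW T δ u.π := rfl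

theorem sd_zero (δ : DD K) (u : Co T) :
    ((sd T δ u).a = 0 ↔ u.a = 0) ∧ ((sd T δ u).b = 0 ↔ u.b = 0) ∧ ((sd T δ u).c = 0 ↔ u.c = 0) ∧
    ((sd T δ u).d = 0 ↔ u.d = 0) := by
  simp [sd, dg, fa]

theorem pr_sd (δ : DD K) : ∀ X ∈ [sZ T, sD T, sA T, sQ T, sX T, sH T], Pr (sd T δ) X := by
  simp only [List.forall_mem_cons, List.not_mem_nil, false_imp_iff, implies_true, and_true, Pr, mem_sZ,
    mem_sD, mem_sA, mem_sQ, mem_sX, mem_sH, sd_zero, imp_self, and_self]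

/-- the central automorphisms `d ↦ d + f a + e b` -/
theorem exists_thC (f e : K → K) (fa : ∀ x y, f (x + y) = f x + f y) (fk : ∀ x, T.σ (f x) = f x)
    (ea : ∀ x y, T.σ x = x → T.σ y = y → e (x + y) = e x + e y) (ek : ∀ x, T.σ x = x → T.σ (e x) = e x) :
    ∃ θ : MulAut (Co T), ∀ u, (θ u).a = u.a ∧ (θ u).b = u.b ∧ (θ u).c = u.c ∧ (θ u).d = u.d + f u.a + e u.b := by
  let g : Co T → Co T := fun u => ⟨u.a, u.b, u.c, u.d + f u.a + e u.b, u.hb, by
    rw [map_add, map_add, fk, ek _ u.hb]; linear_combination u.hd⟩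
  have : Au ⊤ g := Au.of_inj (fun _ _ => trivial)
    (fun u _ w _ => by ext <;> simp [g, fa, ea _ _ u.hb w.hb]; ring) fun u _ w _ h => by
      have a : u.a = w.a := (congrArg Co.a h :)
      have b : u.b = w.b := (congrArg Co.b h :)
      have d := congrArg Co.d h
      simp only [g, a, b, add_left_inj] at d
      exact Co.ext a b (congrArg Co.c h :) d
  exact ⟨this.toTop, fun u => ⟨rfl, rfl, rfl, rfl⟩⟩

/-- the automorphisms `c ↦ c + γ σ a` -/
theorem exists_thG (γ : K) (h : (2 : K) = 0 → γ = 0) :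
    ∃ θ : MulAut (Co T), (∀ u ∈ sA T, θ u = u) ∧ ∀ u, (θ u).b = u.b ∧ (θ u).π = tg T γ u.π := by
  by_cases h2 : (2 : K) = 0
  · exact ⟨1, fun _ _ => rfl, fun u => ⟨rfl, by simp [h h2, tg_apply]⟩⟩
  have s2 : T.σ 2 = 2 := map_ofNat _ 2
  let g : Co T → Co T := fun u => ⟨u.a, u.b, u.c + γ * T.σ u.a,
    u.d + (T.σ γ * u.a ^ 2 - γ * T.σ u.a ^ 2) / 2, u.hb, by
      simp only [map_add, map_mul, map_sub, map_div₀, map_pow, T.sq, s2]
      field_simp
      linear_combination 2 * u.hd⟩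
  have : Au ⊤ g := Au.of_inj (fun _ _ => trivial)
    (fun u _ w _ => by ext <;> simp [g, T.sq] <;> field_simp <;> ring) fun u _ w _ h => by
      have a : u.a = w.a := (congrArg Co.a h :)
      have c := congrArg Co.c h
      have d := congrArg Co.d h
      simp only [g, a, add_left_inj] at c d
      exact Co.ext a (congrArg Co.b h :) c d
  exact ⟨this.toTop, fun u hu => by
    rw [mem_sA] at hu
    ext <;> simp [Au.toTop_apply, g, hu], fun u => ⟨rfl, rfl⟩⟩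

/-- an automorphism of `Q` preserves `Z` -/
theorem pr_Z {β : Co T → Co T} (h : Au (sQ T) β) : Pr β (sZ T) := fun u hu => by
  obtain ⟨t, rfl⟩ := Z_cm hu
  rw [h.cm rfl rfl]
  exact cm_Q (h.mem _ rfl) (h.mem _ rfl)

theorem π_congr {β : Co T → Co T} (h : Au (sQ T) β) {u w : Co T} (hu : u ∈ sQ T) (hw : w ∈ sQ T)
    (e : u.π = w.π) : (β u).π = (β w).π := by
  have := pr_Z h _ ((Q_mod hw hu).2 e)
  rw [h.mul _ (inv_mem hw) _ hu, h.inv hw] at this
  exact (Q_mod (h.mem _ hw) (h.mem _ hu)).1 this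

/-- the permutation of `W` induced by an automorphism of `Q` -/
theorem exists_bar {β : Co T → Co T} (h : Au (sQ T) β) :
    ∃ g : Equiv.Perm (K × K), ∀ u ∈ sQ T, (β u).π = g u.π := by
  obtain ⟨γ, hγ, e, e'⟩ := h.exists_inv
  exact ⟨⟨fun w => (β (w1 T w)).π, fun w => (γ (w1 T w)).π,
    fun w => (π_congr hγ (w1_mem _) (h.mem _ (w1_mem w)) rfl).trans (by rw [e' _ (w1_mem w)]; rfl),
    fun w => (π_congr h (w1_mem _) (hγ.mem _ (w1_mem w)) rfl).trans (by rw [e _ (w1_mem w)]; rfl)⟩,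
    fun u hu => π_congr h hu (w1_mem u.π) rfl⟩

theorem exists_gW {Y : Subgroup (Equiv.Perm (Co T))} (h : Lg (sQ T) Y) {α : Equiv.Perm (Co T)} (hα : α ∈ Y) :
    ∃ g ∈ gW T Y, ∀ u ∈ sQ T, (α u).π = g u.π :=
  let ⟨g, e⟩ := exists_bar (h.au α hα)
  ⟨g, ⟨α, hα, h.au α hα, e⟩, e⟩

theorem card_Co : Nat.card (Co T) = Nat.card K ^ 2 * Nat.card T.κ ^ 2 := by
  have e : Co T ≃ K × K × T.κ × T.κ :=
    { toFun := fun u => (u.a, u.c, ⟨u.b, u.hb⟩, ⟨u.d - u.a * T.σ u.c, u.nu2.hb⟩)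
      invFun := fun ⟨a, c, b, d⟩ => ⟨a, b, c, d + a * T.σ c, b.2, by
          simp only [map_add, map_mul, T.sq, d.2]; ring⟩
      left_inv := fun u => by ext <;> simp
      right_inv := fun ⟨a, c, b, d⟩ => by simp }
  rw [Nat.card_congr e]
  simp only [Nat.card_prod]
  ring

end H28.U4
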