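/- U4 tower (row S5210): fusion systems on a Sylow subgroup of the unitary group of degree four.
Proofs: blueprints/U4.md (generic `q` and `q = 2`), blueprints/U4Q3.md (`q = 3`). -/
import Cfsg.Agent.H28.U4Kit

set_option autoImplicit false
set_option linter.unusedSectionVars false
set_option linter.unusedVariables false

open Subgroup H90.RF H92 Cfsg
open H90.U5 (BF DD Bq)

universe v

namespace H28.U4

section Co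
variable {K : Type*} [Field K] [Finite K] (T : BF K)

/-- the fixed field is the prime field -/
def Pm : Prop := ∀ l, T.σ l = l → ∃ n : ℕ, l = n
/-- the fixed field has more than two elements -/
def G2 : Prop := ∃ l, T.σ l = l ∧ l ≠ 0 ∧ l ≠ 1
/-- the fixed field has more than three elements (odd characteristic) -/
def Big : Prop := ∃ l, T.σ l = l ∧ l ≠ 0 ∧ l ≠ 1 ∧ l ≠ -1

/-- conjugation by `x_a(t)` on `A` -/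
noncomputable def ux (t : K) : Equiv.Perm (Co T) := iS (sA T) (xa T t)

/-- the flag `Z < D` is kept -/
def PZ (α : Co T → Co T) : Prop := Pr α (sZ T) ∧ Pr α (sD T)

/-- the extra candidates for `q = 2` -/
def cE (c : K) : Subgroup (Co T) := centralizer {xc T c}

/-- what is used of the automizer of `A` -/
structure Sa (p : ℕ) (Y : Subgroup (Equiv.Perm (Co T))) : Prop where
  lg : Lg (sA T) Y
  syl : SylIn p (iS (sA T)).range Y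
  pel : ∀ α ∈ Y, PZ T α → (∃ k : ℕ, α ^ p ^ k = 1) → ∃ t, α = ux T t
  nor : ∀ α ∈ Y, PZ T α → ∀ t, ∃ t', α * ux T t * α⁻¹ = ux T t'

/-- the automizers of `S`, `Q`, `A` -/
structure Tri (p : ℕ) (Y0 Y1 Y2 : Subgroup (Equiv.Perm (Co T))) : Prop where
  l0 : Lg ⊤ Y0
  l1 : Lg (sQ T) Y1
  sa : Sa T p Y2
  inn : ∀ s, ∃ y ∈ Y0, ∀ u, y u = s * u * s⁻¹
  pel0 : ∀ y ∈ Y0, (∃ k : ℕ, y ^ p ^ k = 1) → ∃ s, ∀ u, y u = s * u * s⁻¹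
  rad0 : ∀ y ∈ Y0, Cg (z0 T) 4 y id → ∃ s, ∀ u, y u = s * u * s⁻¹
  res1 : ∀ y ∈ Y0, ∃ α ∈ Y1, ∀ u ∈ sQ T, α u = y u
  ext1 : ∀ α ∈ Y1, Pr α (sD T) → ∃ y ∈ Y0, ∀ u ∈ sQ T, α u = y u
  pel1 : ∀ α ∈ Y1, Pr α (sD T) → (∃ k : ℕ, α ^ p ^ k = 1) → ∃ s, ∀ u ∈ sQ T, α u = s * u * s⁻¹
  rad1 : ∀ α ∈ Y1, (∀ u ∈ sQ T, (α u).π = u.π) → ∃ s ∈ sQ T, ∀ u ∈ sQ T, α u = s * u * s⁻¹
  res2 : ∀ y ∈ Y0, ∃ α ∈ Y2, ∀ u ∈ sA T, α u = y u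
  ext2 : ∀ α ∈ Y2, PZ T α → ∃ y ∈ Y0, ∀ u ∈ sA T, α u = y u

/-- the characteristic subgroups -/
def AP : Prop := ∀ θ : Co T → Co T, Au ⊤ θ → Pr θ (sZ T) ∧ Pr θ (sD T) ∧ Pr θ (sA T) ∧ Pr θ (sQ T)

/-- `θ` and `sd δ` agree on the factors of `z0` -/
def Gr (θ : Co T → Co T) (δ : DD K) : Prop :=
  (∀ u, (θ u).a = (sd T δ u).a ∧ (θ u).b = (sd T δ u).b) ∧ (∀ u ∈ sD T, (θ u).c = (sd T δ u).c) ∧
    ∀ u ∈ sZ T, (θ u).d = (sd T δ u).d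

/-- the automorphisms of `S` -/
def AS : Prop := AP T ∧ ∀ θ : Co T → Co T, Au ⊤ θ → ∃ δ, Gr T θ δ

/-- the automorphisms of `Q` are semilinear over the fixed field -/
def A1 : Prop := ∀ β : Co T → Co T, Au (sQ T) β → ∀ l, T.σ l = l → ∃ l', T.σ l' = l' ∧
  ∀ u ∈ sQ T, ∀ w ∈ sQ T, w.π = l • u.π → (β w).π = l' • (β u).π

/-- an automorphism of `Q` that is trivial on `W` is inner -/
def In : Prop := ∀ β : Co T → Co T, Au (sQ T) β → (∀ u ∈ sQ T, (β u).π = u.π) →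
  ∃ s ∈ sQ T, ∀ u ∈ sQ T, β u = s * u * s⁻¹

/-- the flag is determined by the action of `{x_a(l c)}` -/
def ZX : Prop := ∀ β : Co T → Co T, Au (sA T) β → ∀ c c' : K, c ≠ 0 → c' ≠ 0 →
  (∀ l, T.σ l = l → ∃ l', T.σ l' = l' ∧ ∀ u ∈ sA T, β (ux T (l * c) u) = ux T (l' * c') (β u)) → PZ T β

/-! ### The side of `A` -/

/-- a mover that commutes with `x_a(c)` -/
def Mc (c : K) (Y : Subgroup (Equiv.Perm (Co T))) : Prop := ∃ α ∈ Y, α * ux T c = ux T c * α ∧ ¬ PZ T α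
/-- no such mover -/
def NM (Y : Subgroup (Equiv.Perm (Co T))) : Prop := ∀ c, c ≠ 0 → ¬ Mc T c Y
/-- trivial intersections -/
def TI (Y : Subgroup (Equiv.Perm (Co T))) : Prop :=
  ∀ α ∈ Y, ∀ t t', t ≠ 0 → α * ux T t' * α⁻¹ = ux T t → PZ T α
def Oa (Y : Subgroup (Equiv.Perm (Co T))) : Prop :=
  ∀ α ∈ Y, (∀ z ∈ sZ T, α z ∈ sD T → α z ∈ sZ T) ∧ ∀ v ∈ sD T, ∃ z ∈ sZ T, ∃ w ∈ sD T, v = z * α w
/-- the counting bound -/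
def Fam (Y : Subgroup (Equiv.Perm (Co T))) : Prop :=
  ∀ (G : Finset (Equiv.Perm (Co T))) (I X : Subgroup (Co T)) (r : ℕ), 2 ≤ G.card → (∀ g ∈ G, g ∈ Y) →
    (∀ g ∈ G, ∀ h ∈ G, g ≠ h → ¬ PZ T ⇑(g⁻¹ * h) ∧ ∀ v, (g⁻¹ v ∈ sZ T ∧ h⁻¹ v ∈ sZ T) ↔ v ∈ I) →
    (∀ g ∈ G, ∀ w ∈ sD T, g w ∈ X) → r * Nat.card I = Nat.card T.κ → Nat.card X = r * Nat.card T.κ ^ 3 →
    G.card ≤ r * (Nat.card T.κ + 1)
def Ob (Y : Subgroup (Equiv.Perm (Co T))) : Prop :=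
  ∀ α ∈ Y, PZ T α ∨ ∀ z ∈ sZ T, α z ∈ sD T → z = 1
/-- two-transitivity -/
def Oc (Y : Subgroup (Equiv.Perm (Co T))) : Prop :=
  ∀ α ∈ Y, ∀ β ∈ Y, ¬ PZ T α → ¬ PZ T β → ∃ t, PZ T ⇑(α⁻¹ * ux T t * β)
/-- the opposite flag -/
def XH (g : Co T → Co T) : Prop := (∀ z ∈ sZ T, g z ∈ sX T) ∧ ∀ w ∈ sD T, g w ∈ sH T
def Ov (Y : Subgroup (Equiv.Perm (Co T))) : Prop := ∃ g ∈ Y, XH T g
/-- a prime field or a torus element -/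
def HH (Y0 : Subgroup (Equiv.Perm (Co T))) : Prop :=
  Pm T ∨ ∃ y ∈ Y0, ∃ s, T.σ s = s ∧ s ≠ 0 ∧ s ≠ 1 ∧ (∀ u, (y u).a = s⁻¹ * u.a) ∧
    (∀ u ∈ sD T, (y u).c = s * u.c) ∧ ∀ u ∈ sZ T, y u = u
/-- `Y₂` is standard -/
structure St2 (Y : Subgroup (Equiv.Perm (Co T))) : Prop where
  n2 : ∃ n ∈ Y, ∀ u ∈ sA T, n u = u.nu2
  tor : ∀ s : Kˣ, ∃ α ∈ Y, ∀ u ∈ sA T, α u = sd T (SemidirectProduct.inl (t2 s)) u
  om : ∀ α ∈ Y, PZ T α ∨ ∃ t, XH T ⇑(ux T t * α)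

/-! ### The side of `W` -/

/-- the line `a = 0` is kept -/
def PL (g : K × K → K × K) : Prop := ∀ w, w.1 = 0 → (g w).1 = 0

/-- what is used of the group induced on `W` -/
structure Sp (p : ℕ) (G : Subgroup (Equiv.Perm (K × K))) : Prop where
  add : ∀ g ∈ G, ∀ x y, g (x + y) = g x + g y
  semi : ∀ g ∈ G, ∀ l, T.σ l = l → ∃ l', T.σ l' = l' ∧ ∀ x, g (l • x) = l' • g x
  form : ∀ g ∈ G, ∃ ζ : K → K, ζ 0 = 0 ∧ (∀ l, T.σ l = l → ζ l = 0 → l = 0) ∧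
    (∀ x y, bf T (g x) (g y) = ζ (bf T x y)) ∧ ((2 : K) = 0 → ∀ x, qf T (g x) = ζ (qf T x))
  uu : ∀ b, T.σ b = b → ub b ∈ G
  pel : ∀ g ∈ G, PL g → (∃ k : ℕ, g ^ p ^ k = 1) → ∃ b, T.σ b = b ∧ g = ub b
  nor : ∀ g ∈ G, PL g → ∃ b γ δ, T.σ b = b ∧ ((2 : K) = 0 → γ = 0) ∧ g = ub b * tg T γ * sdW T δ

def Opp (G : Subgroup (Equiv.Perm (K × K))) : Prop :=
  ∀ g ∈ G, PL g ∨ ∀ w, w.1 = 0 → (g w).1 = 0 → w = 0
/-- the image of the line is a graph and the opposite root group is the standard one -/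
def Lo (G : Subgroup (Equiv.Perm (K × K))) : Prop :=
  ∀ g ∈ G, ¬ PL g → ∃ β γ, T.σ β = β ∧ ((2 : K) = 0 → γ = 0) ∧
    (∀ w, w.1 = 0 → (g w).2 = β * (g w).1 + γ * T.σ (g w).1) ∧ ∀ t, T.σ t = t → lb t ∈ cW (tg T γ) G
def Om1 (G : Subgroup (Equiv.Perm (K × K))) : Prop :=
  ∀ g ∈ G, PL g ∨ ∃ b, T.σ b = b ∧ ∀ w, w.1 = 0 → (g w).2 = b * (g w).1
/-- `G` is standard -/
structure St1 (G : Subgroup (Equiv.Perm (K × K))) : Prop where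
  n1 : nb ∈ G
  tor : ∀ s : Kˣ, T.σ s = s → hs s ∈ G
  om : Om1 T G
/-- `G` is conjugate to a standard group -/
def Gn (G : Subgroup (Equiv.Perm (K × K))) : Prop :=
  ∃ γ, ((2 : K) = 0 → γ = 0) ∧ St1 T (cW (tg T γ) G)

/-- `Y₁` contains `n₁` -/
def N1 (Y1 : Subgroup (Equiv.Perm (Co T))) : Prop := ∃ n ∈ Y1, ∀ u ∈ sQ T, n u = u.nu1

/-- `Y₀` is standard -/
def St0 (Γ : Subgroup (DD K)) (Y0 : Subgroup (Equiv.Perm (Co T))) : Prop :=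
  ∀ y : Equiv.Perm (Co T), y ∈ Y0 ↔ ∃ s, ∃ δ ∈ Γ, ∀ u, y u = s * sd T δ u * s⁻¹

/-- `Γ` contains the torus of `SU₄` -/
def Tor (Γ : Subgroup (DD K)) : Prop :=
  (∀ s : Kˣ, T.σ s = s → SemidirectProduct.inl (t1 s) ∈ Γ) ∧ ∀ s : Kˣ, SemidirectProduct.inl (t2 s) ∈ Γ

/-- the realizing group -/
structure Rl (p : ℕ) (Γ : Subgroup (DD K)) {G : Type*} [Group G] (ι : Co T →* G) : Prop where
  inj : Function.Injective ι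
  syl : ∃ S : Sylow p G, (S : Subgroup G) = ι.range
  nor : ∀ g ∈ normalizer (ι.range : Set G), ∃ s, ∃ δ ∈ Γ, ∀ u, g * ι u * g⁻¹ = ι (s * sd T δ u * s⁻¹)
  std : ∀ δ ∈ Γ, ∃ g, ∀ u, g * ι u * g⁻¹ = ι (sd T δ u)
  n1 : ∃ g, ∀ u ∈ sQ T, g * ι u * g⁻¹ = ι u.nu1
  n2 : ∃ g, ∀ u ∈ sA T, g * ι u * g⁻¹ = ι u.nu2
  om1 : ∀ (g : G) (f : Co T → Co T), Pr f (sQ T) → (∀ u ∈ sQ T, g * ι u * g⁻¹ = ι (f u)) →
    Pr f (sD T) ∨ ∃ b, T.σ b = b ∧ ∀ u ∈ sD T, (f u).c = b * (f u).a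

/-! ### Statements about fusion systems -/

/-- the three automizers of every saturated system -/
def TA (p : ℕ) : Prop := ∀ F : FusionSystem (⊤ : Subgroup (Co T)), F.IsSaturated p →
  Tri T p (aY F ⊤) (aY F (sQ T)) (aY F (sA T))

/-- the essential subgroups -/
def Ess (p : ℕ) : Prop := ∀ F : FusionSystem (⊤ : Subgroup (Co T)), F.IsSaturated p → ∀ E, F.IsEssential p E →
  E = sQ T ∨ E = sA T ∨ ∃ c, c ≠ 0 ∧ E = cE T c ∧ Mc T c (aY F (sA T))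

/-- a saturated system in which both automizers move the flag -/
structure Mv (p : ℕ) (F : FusionSystem (⊤ : Subgroup (Co T))) : Prop where
  sat : F.IsSaturated p
  m1 : ∃ α ∈ aY F (sQ T), ¬ Pr α (sD T)
  m2 : ∃ α ∈ aY F (sA T), ¬ PZ T α

end Co

/-! ### The essential subgroups -/

def JobZX : Prop := H90.U5.All.{v} fun _ K _ _ T => (2 : K) = 0 → G2 T → ZX T
def JobL0 : Prop := H90.U5.All.{v} fun p K _ _ T => ((2 : K) = 0 → G2 T → ZX T) → ∀ E M, Bq p (zA T) 0 E M →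
  E = sA T ∨ ((2 : K) ≠ 0 ∧ ∃ m : Co T, m.a ≠ 0 ∧ m.b ≠ 0 ∧ E = centralizer {m}) ∨
    (¬ G2 T ∧ (2 : K) = 0 ∧ ∃ c, c ≠ 0 ∧ E = cE T c)
def JobL1 : Prop := H90.U5.All.{v} fun p _ _ _ T =>
  (∀ E M, Bq p (zA T) 1 E M → E = sQ T) ∧ ∀ E M, ¬ Bq p (zA T) 2 E M
def JobPE : Prop := H90.U5.All.{v} fun p K _ _ T => (2 : K) ≠ 0 →
  ∀ F : FusionSystem (⊤ : Subgroup (Co T)), F.IsSaturated p → ∀ m : Co T, m.a ≠ 0 → m.b ≠ 0 →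
    ¬ F.IsEssential p (centralizer {m})
def JobEM : Prop := ∀ F : FusionSystem (⊤ : Subgroup (Co T4)), F.IsSaturated 2 → ∀ c, c ≠ 0 →
  F.IsEssential 2 (cE T4 c) → Mc T4 c (aY F (sA T4))

/-! ### Automorphisms -/

def JobAP : Prop := H90.U5.All.{v} fun _ _ _ _ T => AP T
def JobAS : Prop := H90.U5.All.{v} fun _ _ _ _ T => AP T → AS T
def JobA1 : Prop := H90.U5.All.{v} fun _ _ _ _ T => A1 T
def JobIn : Prop := H90.U5.All.{v} fun _ _ _ _ T => Pm T → In T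
def JobTri : Prop := H90.U5.All.{v} fun p _ _ _ T => AP T → TA T p

/-! ### The side of `A` -/

def JobNM : Prop := H90.U5.All.{v} fun p K _ _ T => ((2 : K) = 0 → G2 T ∧ ZX T) → ∀ Y, Sa T p Y → NM T Y
def JobTI : Prop := H90.U5.All.{v} fun p _ _ _ T => ∀ Y, Sa T p Y → NM T Y → TI T Y
def JobOa : Prop := H90.U5.All.{v} fun p _ _ _ T => ∀ Y, Sa T p Y → TI T Y → Oa T Y
/-- the variance bound -/
def JobVar : Prop := ∀ (X ι : Type v) [DecidableEq X] (V S : Finset X) (J : Finset ι) (D : ι → Finset X) (r : ℕ),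
  (∀ i ∈ J, D i ⊆ V ∧ r * (D i).card = V.card) →
  (∀ i ∈ J, ∀ j ∈ J, i ≠ j → r ^ 2 * (D i ∩ D j).card = V.card) → S ⊆ V →
  (∀ x ∈ S, ∃ i ∈ J, x ∈ D i ∧ ∀ j ∈ J, x ∈ D j → j = i) →
  (S.card : ℤ) * ((J.card : ℤ) - r) ^ 2 ≤ V.card * (J.card * ((r : ℤ) - 1))
def JobFam : Prop := JobVar.{v} → H90.U5.All.{v} fun p _ _ _ T => ∀ Y, Sa T p Y → Oa T Y → Fam T Y
def JobOb : Prop := H90.U5.All.{v} fun p _ _ _ T => ∀ Y, Sa T p Y → TI T Y → Oa T Y → Fam T Y → Ob T Y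
def JobOc : Prop := H90.U5.All.{v} fun p _ _ _ T => ∀ Y, Sa T p Y → TI T Y → Ob T Y → Fam T Y → Oc T Y
def JobO5 : Prop := H90.U5.All.{v} fun p _ _ _ T => ∀ Y0 Y1 Y2, Tri T p Y0 Y1 Y2 → Oa T Y2 → Ob T Y2 → Oc T Y2 →
  TI T Y2 → HH T Y0 → (∃ α ∈ Y2, ¬ PZ T α) → ∃ θ : MulAut (Co T), (∀ u ∈ sQ T, θ u = u) ∧ Ov T (cjY θ Y2)
def JobO6 : Prop := H90.U5.All.{v} fun p _ _ _ T => ∀ Y, Sa T p Y → Oc T Y → Ov T Y → St2 T Y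

/-! ### The side of `W` -/

def JobBar : Prop := H90.U5.All.{v} fun p _ _ _ T => AS T → A1 T → ∀ Y0 Y1 Y2, Tri T p Y0 Y1 Y2 → Sp T p (gW T Y1)
def JobOpp2 : Prop := H90.U5.All.{v} fun p K _ _ T => (2 : K) = 0 → ∀ G, Sp T p G → Opp G
def JobOpp : Prop := H90.U5.All.{v} fun p K _ _ T => (2 : K) ≠ 0 → Big T → ∀ G, Sp T p G → Opp G
def JobLo : Prop := H90.U5.All.{v} fun p K _ _ T => ((2 : K) = 0 ∨ Big T) → ∀ G, Sp T p G → Opp G → Lo T G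
def JobGn : Prop := H90.U5.All.{v} fun p K _ _ T => ((2 : K) = 0 ∨ Big T) → ∀ G, Sp T p G → Lo T G →
  (∃ g ∈ G, ¬ PL g) → Gn T G
def JobN1 : Prop := H90.U5.All.{v} fun p _ _ _ T => AS T → (In T ∨ G2 T) → ∀ Y0 Y1 Y2, Tri T p Y0 Y1 Y2 →
  St1 T (gW T Y1) → ∃ θ : MulAut (Co T), (∀ u, (θ u).π = u.π) ∧ N1 T (cjY θ Y1)
def JobRig : Prop := H90.U5.All.{v} fun p K _ _ T => AS T → ∀ Y0 Y1 Y2, Tri T p Y0 Y1 Y2 → St1 T (gW T Y1) →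
  N1 T Y1 → St2 T Y2 → ∃ Γ : Subgroup (DD K), (Nat.card Γ).Coprime p ∧ St0 T Γ Y0 ∧ Tor T Γ

/-! ### Models -/

def JobReal : Prop := H90.U5.All.{v} fun p K _ _ T => ∀ Γ : Subgroup (DD K), (Nat.card Γ).Coprime p → Tor T Γ →
  ∃ (G : Type v) (_ : Group G) (_ : Finite G) (ι : Co T →* G), Rl T p Γ ι

def JobModel : Prop := ∀ (p : ℕ) [Fact p.Prime] (K : Type v) [Field K] [Fintype K] [CharP K p] (n : ℕ),
  1 ≤ n → Fintype.card K = (p ^ n) ^ 2 → ∀ S : Sylow p (PSU 4 K (p ^ n)),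
  ∃ T : BF K, Nonempty ((S : Subgroup (PSU 4 K (p ^ n))) ≃* Co T)

def JobTr : Prop := H90.U5.All.{v} fun p K _ _ T => ¬ Big T →
  (p = 2 ∧ Nonempty (Co T ≃* Co T4)) ∨ (p = 3 ∧ Nonempty (Co T ≃* Co T9))

/-! ### `q = 2` -/

/-- an element of `A` over `𝔽₄` -/
def vz (b : ZMod 2) (c : F4) (d : ZMod 2) : Co T4 :=
  ⟨0, ⟨b, 0⟩, c, ⟨d, 0⟩, by revert b; decide, by revert c d; decide⟩

/-- the mover of order three that commutes with `x_a(1)` -/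
def r1 (u : Co T4) : Co T4 := vz (u.c.im + u.b.re) ⟨u.d.re + u.c.im, u.b.re⟩ (u.d.re + u.c.re + u.c.im + u.b.re)
/-- the mover of order three that commutes with `x_a(ω)` -/
def r2 (u : Co T4) : Co T4 := vz u.c.re ⟨u.c.re + u.b.re, u.d.re + u.c.re + u.c.im⟩ (u.c.re + u.c.im + u.b.re)
/-- `d ↦ d + b` on `A` -/
def th (u : Co T4) : Co T4 := vz u.b.re u.c (u.d.re + u.b.re)
/-- `ω` -/
def om : F4 := ⟨0, 1⟩

/-- `Y` contains the map `f` on `A` -/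
def Hs (f : Co T4 → Co T4) (Y : Subgroup (Equiv.Perm (Co T4))) : Prop := ∃ α ∈ Y, ∀ u ∈ sA T4, α u = f u

/-- computations in `GL₄(2)` -/
def JobQa : Prop := ∀ Y, Sa T4 2 Y → (Mc T4 1 Y → Hs r1 Y ∨ Hs (fun u => th (r1 (th u))) Y) ∧
  (Hs r1 Y → Mc T4 om Y → Hs r2 Y) ∧ (Hs r1 Y → Hs r2 Y → ¬ Mc T4 (1 + om) Y)
def JobQb : Prop := ∀ Y Y', Sa T4 2 Y → Sa T4 2 Y' →
  (Hs r1 Y → Hs r1 Y' → ∀ α ∈ Y, α * ux T4 1 = ux T4 1 * α → α ∈ Y') ∧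
  (Hs r2 Y → Hs r2 Y' → ∀ α ∈ Y, α * ux T4 om = ux T4 om * α → α ∈ Y')
/-- the model `GL₄(2)` -/
def JobQm : Prop := ∃ (G : Type) (_ : Group G) (_ : Finite G) (ι : Co T4 →* G), Function.Injective ι ∧
  (∃ S : Sylow 2 G, (S : Subgroup G) = ι.range) ∧ (∃ g, ∀ u ∈ sA T4, g * ι u * g⁻¹ = ι (r1 u)) ∧
  (∃ g, ∀ u ∈ sA T4, g * ι u * g⁻¹ = ι (r2 u)) ∧ ∃ g, ∀ u ∈ sQ T4, g * ι u * g⁻¹ = ι u.nu1

/-- one or two movers: `Aut_F(S)` is inner and `A` is not essential -/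
def Qi : Prop := ∀ F : FusionSystem (⊤ : Subgroup (Co T4)), F.IsSaturated 2 →
  (∃ c, c ≠ 0 ∧ Mc T4 c (aY F (sA T4))) → (∃ c, c ≠ 0 ∧ ¬ Mc T4 c (aY F (sA T4))) →
  (∀ y ∈ aY F ⊤, ∃ s, ∀ u, y u = s * u * s⁻¹) ∧ ¬ F.IsEssential 2 (sA T4)
def JobQi : Prop := AS T4 → TA T4 2 → Qi

/-- what the generic part gives for `q = 2` -/
structure H2 : Prop where
  aS : AS T4
  ta : TA T4 2
  ess : Ess T4 2
  inn : In T4
  qi : Qi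
  st : ∀ F : FusionSystem (⊤ : Subgroup (Co T4)), F.IsSaturated 2 →
    (∃ α ∈ aY F (sQ T4), ¬ Pr α (sD T4)) → St1 T4 (gW T4 (aY F (sQ T4)))

/-- one mover -/
def JobQc : Prop := H2 → ∀ F : FusionSystem (⊤ : Subgroup (Co T4)), F.IsSaturated 2 → ∀ c0, c0 ≠ 0 →
  Mc T4 c0 (aY F (sA T4)) → (∀ c, c ≠ 0 → Mc T4 c (aY F (sA T4)) → c = c0) → F.IsRealizable 2
/-- two movers in normal form -/
def JobQd : Prop := H2 → JobQa → JobQb → JobQm → ∀ F : FusionSystem (⊤ : Subgroup (Co T4)), F.IsSaturated 2 →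
  Hs r1 (aY F (sA T4)) → Hs r2 (aY F (sA T4)) → F.IsRealizable 2

/-! ### `q = 3` -/

/-- what the generic part gives for `q = 3` -/
structure H3 : Prop where
  aS : AS T9
  ta : TA T9 3
  inn : In T9
  sp : ∀ F : FusionSystem (⊤ : Subgroup (Co T9)), F.IsSaturated 3 → Sp T9 3 (gW T9 (aY F (sQ T9)))
  tau : ∀ F, Mv T9 3 F → ∀ s, sdW T9 (SemidirectProduct.inl (t2 s)) ∈ gW T9 (aY F (sQ T9))
  cj : ∀ F, Mv T9 3 F → ∀ (θ : MulAut (Co T9)) (x : Equiv.Perm (F9 × F9)), (∀ u ∈ sQ T9, (θ u).π = x u.π) →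
    ∃ F', Mv T9 3 F' ∧ (F'.IsRealizable 3 ↔ F.IsRealizable 3) ∧
      gW T9 (aY F' (sQ T9)) = cW x (gW T9 (aY F (sQ T9)))
  same : ∀ F E, Mv T9 3 F → Mv T9 3 E → gW T9 (aY F (sQ T9)) = gW T9 (aY E (sQ T9)) →
    E.IsRealizable 3 → F.IsRealizable 3

/-- the exceptional systems -/
def JobX3 : Prop := H3 → ∀ F, Mv T9 3 F → ¬ Gn T9 (gW T9 (aY F (sQ T9))) → F.IsRealizable 3

end H28.U4
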