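/- U4 tower (row S5210): small lemmas for the slots. -/
import Cfsg.Agent.H28.U4Spec

set_option autoImplicit false
set_option linter.unusedSectionVars false
set_option linter.unusedSimpArgs false
set_option linter.unusedVariables false

open Subgroup H90.RF H92 Cfsg
open H90.U5 (BF DD Bq)

namespace H28.U4

variable {K : Type*} [Field K] [Finite K] {T : BF K} {p : ℕ} {Y : Subgroup (Equiv.Perm (Co T))}
  {α β : Equiv.Perm (Co T)}

theorem ux_apply (t : K) {u : Co T} (hu : u ∈ sA T) : ux T t u = xa T t * u * (xa T t)⁻¹ := iS_mem _ hu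
theorem ux_out (t : K) {u : Co T} (hu : u ∉ sA T) : ux T t u = u := iS_not_mem _ hu
/-- the coordinates of `x_a(t) u x_a(t)⁻¹` -/
theorem ux_co (t : K) {u : Co T} (hu : u ∈ sA T) : (ux T t u).a = 0 ∧ (ux T t u).b = u.b ∧
    (ux T t u).c = u.c + t * u.b ∧
    (ux T t u).d = u.d + (t * T.σ u.c + T.σ t * u.c) + t * T.σ t * u.b := by
  rw [ux_apply t hu]; exact cj_A _ hu
theorem ux_add (s t : K) : ux T (s + t) = ux T s * ux T t := by rw [ux, xa_add, map_mul]; rfl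
theorem ux_neg (t : K) : ux T (-t) = (ux T t)⁻¹ := by rw [ux, xa_neg, map_inv]; rfl
theorem ux_zero : ux T 0 = 1 := map_one (iS (sA T))
theorem ux_comm (s t : K) : ux T s * ux T t = ux T t * ux T s := by rw [← ux_add, add_comm, ux_add]
theorem ux_inj {s t : K} (h : ux T s = ux T t) : s = t := by
  have a := (ux_co s (u := xb T 1 (map_one _)) rfl).2.2.1
  rw [h, (ux_co t (u := xb T 1 (map_one _)) rfl).2.2.1] at a
  simpa [xb] using a.symm
theorem iS_eq (s : Co T) : iS (sA T) s = ux T s.a := Equiv.ext fun u => by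
  by_cases hu : u ∈ sA T
  · rw [iS_mem _ hu, ux_apply _ hu, cj_xa s hu]
  · rw [iS_not_mem _ hu, ux_out _ hu]
theorem mem_U : α ∈ (iS (sA T)).range ↔ ∃ t, α = ux T t :=
  ⟨fun ⟨s, e⟩ => ⟨s.a, e ▸ iS_eq s⟩, fun ⟨t, e⟩ => ⟨xa T t, e.symm⟩⟩
theorem ux_pow (p : ℕ) [CharP K p] (t : K) : ux T t ^ p = 1 := by
  rw [ux, ← map_pow, iS_eq, (pow_a _ _).1, CharP.cast_eq_zero, zero_mul, ux_zero]
theorem ux_Z (t : K) {u : Co T} (hu : u ∈ sZ T) : ux T t u = u := by
  rw [ux_apply t (Z_le_A hu), comm_Z _ hu, mul_inv_cancel_right]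
/-- the fixed points of `U` -/
theorem Z_of_fix {u : Co T} (hu : u ∈ sA T) (h : ∀ t, ux T t u = u) : u ∈ sZ T := by
  have hb : u.b = 0 := by simpa [h] using (ux_co 1 hu).2.2.1
  refine ⟨hu, hb, by_contra fun k => ?_⟩
  obtain ⟨t, ht⟩ := exists_tr_ne (T := T) k
  exact ht (by simpa [h, hb] using (ux_co t hu).2.2.2)

theorem Sa.ux_mem (h : Sa T p Y) (t : K) : ux T t ∈ Y := h.syl.1 (mem_U.2 ⟨t, rfl⟩)
theorem pz_ux (t : K) : PZ T (ux T t) :=
  ⟨fun u hu => by rwa [ux_Z t hu], fun u hu => ⟨(ux_co t hu.1).1, (ux_co t hu.1).2.1.trans hu.2⟩⟩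
theorem pz_one : PZ T (1 : Equiv.Perm (Co T)) := ⟨fun _ h => h, fun _ h => h⟩
theorem PZ.mul (h : PZ T α) (k : PZ T β) : PZ T ⇑(α * β) :=
  ⟨fun u hu => h.1 _ (k.1 u hu), fun u hu => h.2 _ (k.2 u hu)⟩
theorem pr_inv {X : Subgroup (Co T)} (h : Pr α X) : Pr ⇑α⁻¹ X := fun u hu => by
  obtain ⟨⟨w, hw⟩, e⟩ := Finite.surjective_of_injective (f := fun x : X => (⟨α x, h x x.2⟩ : X))
    (fun x y e => Subtype.ext (α.injective (congrArg Subtype.val e))) ⟨u, hu⟩
  obtain rfl : α w = u := congrArg Subtype.val e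
  simpa using hw
theorem PZ.inv (h : PZ T α) : PZ T ⇑α⁻¹ := ⟨pr_inv h.1, pr_inv h.2⟩
theorem PZ.of_mul_left (h : PZ T α) (k : PZ T ⇑(α * β)) : PZ T β := by simpa using h.inv.mul k
theorem PZ.of_mul_right (h : PZ T β) (k : PZ T ⇑(α * β)) : PZ T α := by simpa using k.mul h.inv
/-- an automorphism of `A` that normalises `U` keeps the flag -/
theorem pz_of_nor (a : Au (sA T) α) (h : ∀ t, ∃ t', α⁻¹ * ux T t * α = ux T t') : PZ T α := by
  have hZ : Pr α (sZ T) := fun u hu => Z_of_fix (a.mem u (Z_le_A hu)) fun t => by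
    obtain ⟨t', e⟩ := h t
    have := congrArg (fun f => α (f u)) e
    simpa [ux_Z t' hu] using this
  refine ⟨hZ, fun u hu => ⟨a.mem u hu.1, ?_⟩⟩
  obtain ⟨t', e⟩ := h 1
  have e' : ux T 1 (α u) = α (ux T t' u) := by simpa using congrArg (fun f => α (f u)) e
  have k := hZ _ (cm_Z (xa T t') hu)
  rw [cm, ← ux_apply t' hu.1, a.mul _ (inv_mem hu.1) _ (ux_co t' hu.1).1, a.inv hu.1, ← e'] at k
  have := k.2.2
  have ha : (α u).a = 0 := a.mem u hu.1
  simpa [(ux_co 1 ha).2.2.1, ha] using this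
/-- conjugates of elements of `U` by a mover are movers -/
theorem TI.mover [CharP K p] (s : Sa T p Y) (h : TI T Y) (hα : α ∈ Y) (m : ¬ PZ T α) {t : K} (ht : t ≠ 0) :
    ¬ PZ T ⇑(α⁻¹ * ux T t * α) := fun k => by
  obtain ⟨t', e⟩ := s.pel _ (mul_mem (mul_mem (inv_mem hα) (s.ux_mem t)) hα) k ⟨1, by
    rw [pow_one, show α⁻¹ * ux T t * α = α⁻¹ * ux T t * α⁻¹⁻¹ by rw [inv_inv], conj_pow, ux_pow]; simp⟩
  exact m (h α hα t t' ht (by rw [← e]; group))

/-! ### `W` -/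

theorem ub_mul (b b' : K) : ub b * ub b' = ub (b + b') := by ext w <;> simp [ub_apply]; ring
theorem lb_mul (b b' : K) : lb b * lb b' = lb (b + b') := by ext w <;> simp [lb_apply]; ring
theorem tg_mul (b b' : K) : tg T b * tg T b' = tg T (b + b') := by ext w <;> simp [tg_apply]; ring
theorem ub_zero : ub (0 : K) = 1 := by ext w <;> simp [ub_apply]
theorem tg_zero : tg T (0 : K) = 1 := by ext w <;> simp [tg_apply]
theorem ub_inv (b : K) : (ub b)⁻¹ = ub (-b) := inv_eq_of_mul_eq_one_right (by rw [ub_mul, add_neg_cancel, ub_zero])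
theorem tg_inv (b : K) : (tg T b)⁻¹ = tg T (-b) :=
  inv_eq_of_mul_eq_one_right (by rw [tg_mul, add_neg_cancel, tg_zero])
theorem ub_pow (b : K) (n : ℕ) : ub b ^ n = ub (n * b) := by
  induction n with
  | zero => simp [ub_zero]
  | succ n ih => rw [pow_succ, ih, ub_mul]; push_cast; congr 1; ring
theorem tg_pow (b : K) (n : ℕ) : tg T b ^ n = tg T (n * b) := by
  induction n with
  | zero => simp [tg_zero]
  | succ n ih => rw [pow_succ, ih, tg_mul]; push_cast; congr 1; ring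
theorem cW_one {X : Type*} (G : Subgroup (Equiv.Perm X)) : cW 1 G = G := by ext; simp [mem_cW]
theorem PL.mul {g h : Equiv.Perm (K × K)} (a : PL g) (b : PL h) : PL ⇑(g * h) := fun w hw => a _ (b w hw)
theorem PL.inv {g : Equiv.Perm (K × K)} (a : PL g) : PL ⇑g⁻¹ := fun u hu => by
  obtain ⟨⟨w, hw⟩, e⟩ := Finite.surjective_of_injective (f := fun x : {w : K × K // w.1 = 0} =>
    (⟨g x, a x x.2⟩ : {w : K × K // w.1 = 0}))
    (fun x y e => Subtype.ext (g.injective (congrArg Subtype.val e))) ⟨u, hu⟩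
  obtain rfl : g w = u := congrArg Subtype.val e
  simpa using hw
theorem pl_iff {g : K × K → K × K} {β : Co T → Co T} (a : Au (sQ T) β) (e : ∀ u ∈ sQ T, (β u).π = g u.π) :
    PL g ↔ Pr β (sD T) :=
  ⟨fun h u hu => ⟨(congrArg Prod.fst (e u hu.2)).trans (h _ hu.1), a.mem u hu.2⟩, fun h w hw =>
    (congrArg Prod.fst (e _ (w1_mem w))).symm.trans (h (w1 T w) ⟨hw, rfl⟩).1⟩

/-- transport of the group on `W` -/
theorem gW_cjY {θ : MulAut (Co T)} (hθ : Pr θ (sQ T)) {x : Equiv.Perm (K × K)}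
    (e : ∀ u ∈ sQ T, (θ u).π = x u.π) (Y : Subgroup (Equiv.Perm (Co T))) : gW T (cjY θ Y) = cW x (gW T Y) := by
  have a : Au (sQ T) θ := (au_aut θ).restrict le_top hθ
  have a' : Au (sQ T) θ.symm := (au_aut θ.symm).restrict le_top fun c hc =>
    (au_aut θ).mem_of le_top hθ trivial (by simpa using hc)
  have e' : ∀ u ∈ sQ T, (θ.symm u).π = x⁻¹ u.π := fun u hu => by
    rw [Equiv.Perm.eq_inv_iff_eq, ← e _ (a'.mem u hu), θ.apply_symm_apply]
  ext g
  constructor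
  · rintro ⟨y, hy, ay, ey⟩
    obtain ⟨α, hα, k⟩ := mem_cjY.1 hy
    have k' : ∀ c, α c = θ (y (θ.symm c)) := fun c => by rw [← k, θ.apply_symm_apply]
    exact ⟨α, hα, (a.comp (ay.comp a')).congr fun c _ => (k' c).symm, fun u hu => by
      rw [k', e _ (ay.mem _ (a'.mem u hu)), ey _ (a'.mem u hu), e' u hu]; rfl⟩
  · rintro ⟨α, hα, aα, eα⟩
    obtain ⟨y, hy, k⟩ := exists_cjY θ hα
    have k' : ∀ c, y c = θ.symm (α (θ c)) := fun c => by rw [k, θ.symm_apply_apply]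
    exact ⟨y, hy, (a'.comp (aα.comp a)).congr fun c _ => (k' c).symm, fun u hu => by
      rw [k', e' _ (aα.mem _ (a.mem u hu)), eα _ (a.mem u hu), e u hu]; simp⟩

end H28.U4
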