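import Cfsg.Agent.H28.Unitary
import Cfsg.Agent.H28.CharKer

/-! Frobenius' commutator lemma for finite unitary groups and the abelian normal subgroup in
Jordan's theorem. -/

set_option autoImplicit false

open Cfsg Representation
open scoped ComplexConjugate

namespace H28
open _root_.H28

section Core

variable {G E : Type*} [Group G] [NormedAddCommGroup E] [InnerProductSpace ℂ E]
  [FiniteDimensional ℂ E]

/-- The operators of a representation as continuous linear maps. -/
noncomputable def repCL (ρ : Representation ℂ G E) : G →* (E →L[ℂ] E) :=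
  (Module.End.toContinuousLinearMap (𝕜 := ℂ) E).toMonoidHom.comp ρ

theorem repCL_apply (ρ : Representation ℂ G E) (g : G) (v : E) : repCL ρ g v = ρ g v := rfl

theorem norm_repCL_le {ρ : Representation ℂ G E} (hρ : ∀ g v, ‖ρ g v‖ = ‖v‖) (g : G) :
    ‖repCL ρ g‖ ≤ 1 :=
  ContinuousLinearMap.opNorm_le_bound _ zero_le_one fun v => by rw [repCL_apply, hρ, one_mul]

/-- For a norm-preserving operator, `‖T - c‖` is attained at an eigenvalue. -/
theorem norm_repCL_sub_lt {ρ : Representation ℂ G E} (hρ : ∀ g v, ‖ρ g v‖ = ‖v‖) (g : G) (c : ℂ)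
    {r : ℝ} (hr : 0 < r) (h : ∀ (μ : ℂ) (v : E), v ≠ 0 → ρ g v = μ • v → ‖μ - c‖ < r) :
    ‖repCL ρ g - algebraMap ℂ _ c‖ < r := by
  have := FiniteDimensional.complete ℂ E
  rcases subsingleton_or_nontrivial E with hE | hE
  · rwa [Subsingleton.elim (repCL ρ g - algebraMap ℂ _ c) 0, norm_zero]
  have hu : repCL ρ g ∈ unitary (E →L[ℂ] E) := by
    have h1 : star (repCL ρ g) * repCL ρ g = 1 :=
      (ContinuousLinearMap.norm_map_iff_adjoint_comp_self _).1 (hρ g)
    have h2 : repCL ρ g * repCL ρ g⁻¹ = 1 := by rw [← map_mul, mul_inv_cancel, map_one]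
    have h3 : star (repCL ρ g) = repCL ρ g⁻¹ := by
      rw [← mul_one (star (repCL ρ g)), ← h2, ← mul_assoc, h1, one_mul]
    exact ⟨h1, by rw [h3, h2]⟩
  have hn1 : IsStarNormal (repCL ρ g) := isStarNormal_of_mem_unitary hu
  have hn2 : IsStarNormal (algebraMap ℂ (E →L[ℂ] E) c) :=
    ⟨(Algebra.commutes c _).symm⟩
  have hn : IsStarNormal (repCL ρ g - algebraMap ℂ _ c) := by
    refine Commute.isStarNormal_sub ?_
    rw [← algebraMap_star_comm]
    exact (Algebra.commutes _ _).symm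
  obtain ⟨z, hz, hz'⟩ := spectrum.exists_nnnorm_eq_spectralRadius (repCL ρ g - algebraMap ℂ _ c)
  rw [IsStarNormal.spectralRadius_eq_nnnorm, ENNReal.coe_inj] at hz'
  have hz2 : z ∈ spectrum ℂ ((ρ g : Module.End ℂ E) - algebraMap ℂ _ c) := by
    rw [← AlgEquiv.spectrum_eq (Module.End.toContinuousLinearMap (𝕜 := ℂ) E), map_sub,
      AlgEquiv.commutes]
    exact hz
  obtain ⟨v, hv⟩ := (Module.End.hasEigenvalue_iff_mem_spectrum.2 hz2).exists_hasEigenvector
  have h1 := hv.apply_eq_smul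
  rw [LinearMap.sub_apply, Module.algebraMap_end_apply, sub_eq_iff_eq_add, ← add_smul] at h1
  have h2 := h _ v hv.2 h1
  rw [add_sub_cancel_right] at h2
  have h3 : ‖z‖ = ‖repCL ρ g - algebraMap ℂ _ c‖ := congrArg NNReal.toReal hz'
  rwa [← h3]

/-- If `a` commutes with `a⁻¹ b⁻¹ a b` and `b` is close to the identity then `a` and `b` have
commuting images. -/
theorem commutator_eq_one_of_close [Finite G] {ρ : Representation ℂ G E}
    (hρ : ∀ g v, ‖ρ g v‖ = ‖v‖) {a b : G} (hb : ‖repCL ρ b - 1‖ < 1)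
    (hc : a * (a⁻¹ * b⁻¹ * a * b) = (a⁻¹ * b⁻¹ * a * b) * a) : ρ (a⁻¹ * b⁻¹ * a * b) = 1 := by
  set c := a⁻¹ * b⁻¹ * a * b with hcdef
  obtain ⟨B, ε, -, hB⟩ := H29.exists_eigenbasis ρ c (isOfFinOrder_of_finite c)
  refine B.ext fun i => ?_
  rw [hB, Module.End.one_apply]
  by_contra hne
  have hγ : ε i ≠ 1 := fun h => hne (by rw [h, one_smul])
  let F := Module.End.eigenspace (ρ c) (ε i)
  have hF : ∀ v ∈ F, ρ a v ∈ F := fun v hv => by
    rw [Module.End.mem_eigenspace_iff] at hv ⊢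
    rw [← Module.End.mul_apply, ← map_mul, ← hc, map_mul, Module.End.mul_apply, hv, map_smul]
  have : Nontrivial F := Submodule.nontrivial_iff_ne_bot.2 fun h0 => B.ne_zero i (by
    have : B i ∈ F := Module.End.mem_eigenspace_iff.2 (hB i)
    rwa [h0, Submodule.mem_bot] at this)
  obtain ⟨α, hα⟩ := Module.End.exists_eigenvalue ((ρ a).restrict hF)
  obtain ⟨w, hw⟩ := hα.exists_hasEigenvector
  have hw0 : (w : E) ≠ 0 := fun h => hw.2 (Subtype.ext h)
  have h1 : ρ a w = α • (w : E) := congrArg Subtype.val hw.apply_eq_smul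
  have h2 : ρ c w = ε i • (w : E) := Module.End.mem_eigenspace_iff.1 w.2
  have h3 : ρ a (ρ b w) = (ε i * α) • ρ b w := by
    rw [← Module.End.mul_apply, ← map_mul, show a * b = b * a * c by rw [hcdef]; group, map_mul,
      map_mul, Module.End.mul_apply, Module.End.mul_apply, h2, map_smul, h1, map_smul, map_smul,
      smul_smul]
  have hα1 : ‖α‖ = 1 := by
    have := hρ a w
    rw [h1, norm_smul] at this
    exact mul_right_cancel₀ (norm_ne_zero_iff.2 hw0) (this.trans (one_mul _).symm)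
  have h4 : inner ℂ (ρ a w) (ρ a (ρ b w)) = inner ℂ (w : E) (ρ b w) :=
    (LinearMap.norm_map_iff_inner_map_map (ρ a)).1 (hρ a) _ _
  rw [h1, h3, inner_smul_left, inner_smul_right, ← mul_assoc, mul_left_comm, Complex.conj_mul',
    hα1] at h4
  have h5 : inner ℂ (w : E) (ρ b w) = 0 := by
    have : (ε i - 1) * inner ℂ (w : E) (ρ b w) = 0 := by
      rw [sub_mul, one_mul, sub_eq_zero]; simpa using h4
    exact (mul_eq_zero.1 this).resolve_left (sub_ne_zero.2 hγ)
  have h6 : ‖inner ℂ (w : E) ((repCL ρ b - 1) w)‖ = ‖(w : E)‖ * ‖(w : E)‖ := by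
    rw [sub_apply, repCL_apply, inner_sub_right, h5, zero_sub, norm_neg,
      one_apply_eq_self, inner_self_eq_norm_sq_to_K]
    simp [sq]
  have h7 := norm_inner_le_norm (𝕜 := ℂ) (w : E) ((repCL ρ b - 1) w)
  have h8 := (repCL ρ b - 1).le_opNorm w
  have h9 : 0 < ‖(w : E)‖ := norm_pos_iff.2 hw0
  rw [h6] at h7
  have h10 : ‖(w : E)‖ ≤ ‖(repCL ρ b - 1) w‖ := le_of_mul_le_mul_left h7 h9
  nlinarith

/-- Frobenius: in a finite unitary group, an element within `1/2` of a scalar commutes with every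
element within `1` of the identity. -/
theorem commute_of_close [Finite G] {ρ : Representation ℂ G E} (hρ : ∀ g v, ‖ρ g v‖ = ‖v‖)
    (hinj : Function.Injective ρ) {a : G} {c : ℂ} (ha : ‖repCL ρ a - algebraMap ℂ _ c‖ < 1 / 2)
    (b : G) (hb : ‖repCL ρ b - 1‖ < 1) : a * b = b * a := by
  by_contra hne
  obtain ⟨b, ⟨hb, hne⟩, hmin⟩ := Set.exists_min_image
    {b : G | ‖repCL ρ b - 1‖ < 1 ∧ a * b ≠ b * a} (fun b => ‖repCL ρ b - 1‖) (Set.toFinite _)
    ⟨b, hb, hne⟩
  have hb0 : 0 < ‖repCL ρ b - 1‖ := by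
    refine norm_pos_iff.2 fun h => hne ?_
    have : b = 1 := hinj (by
      ext v
      have := congrArg (fun T : E →L[ℂ] E => T v) (sub_eq_zero.1 h)
      simpa [repCL_apply] using this)
    simp [this]
  have hlt : ‖repCL ρ (a⁻¹ * b⁻¹ * a * b) - 1‖ < ‖repCL ρ b - 1‖ := by
    have h1 : repCL ρ (a⁻¹ * b⁻¹ * a * b) - 1 = repCL ρ (a⁻¹ * b⁻¹) *
        ((repCL ρ a - algebraMap ℂ _ c) * (repCL ρ b - 1) -
          (repCL ρ b - 1) * (repCL ρ a - algebraMap ℂ _ c)) := by
      have h2 : (repCL ρ a - algebraMap ℂ _ c) * (repCL ρ b - 1) -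
          (repCL ρ b - 1) * (repCL ρ a - algebraMap ℂ _ c) =
          repCL ρ a * repCL ρ b - repCL ρ b * repCL ρ a := by
        simp only [sub_mul, mul_sub, mul_one, one_mul, Algebra.commutes c (repCL ρ b)]
        abel
      rw [h2, mul_sub, ← map_mul, ← map_mul, ← map_mul, ← map_mul]
      simp [mul_assoc]
    rw [h1]
    calc _ ≤ ‖repCL ρ (a⁻¹ * b⁻¹)‖ * ‖(repCL ρ a - algebraMap ℂ _ c) * (repCL ρ b - 1) -
          (repCL ρ b - 1) * (repCL ρ a - algebraMap ℂ _ c)‖ := norm_mul_le _ _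
      _ ≤ 1 * (‖repCL ρ a - algebraMap ℂ _ c‖ * ‖repCL ρ b - 1‖ +
          ‖repCL ρ b - 1‖ * ‖repCL ρ a - algebraMap ℂ _ c‖) := by
        gcongr
        · exact norm_repCL_le hρ _
        · exact (norm_sub_le _ _).trans (add_le_add (norm_mul_le _ _) (norm_mul_le _ _))
      _ < _ := by nlinarith
  have hcomm : a * (a⁻¹ * b⁻¹ * a * b) = (a⁻¹ * b⁻¹ * a * b) * a := by
    by_contra h
    exact absurd (hmin _ ⟨hlt.trans hb, h⟩) (not_le.2 hlt)
  have h1 := commutator_eq_one_of_close hρ hb hcomm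
  have h2 : a⁻¹ * b⁻¹ * a * b = 1 := hinj (by rw [h1, map_one])
  apply hne
  calc a * b = b * a * (a⁻¹ * b⁻¹ * a * b) := by group
    _ = b * a := by rw [h2, mul_one]

end Core

section Arc

theorem norm_sub_lt_half_of_re {μ : ℂ} (h1 : ‖μ‖ = 1) (h : √3 / 2 < μ.re) :
    ‖μ - ((√3 / 2 : ℝ) : ℂ)‖ < 1 / 2 := by
  have h3 : √3 * √3 = 3 := Real.mul_self_sqrt (by norm_num)
  have h4 : 0 < √3 := by positivity
  have h2 : μ.re * μ.re + μ.im * μ.im = 1 := by
    rw [← Complex.normSq_apply, Complex.normSq_eq_norm_sq, h1, one_pow]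
  refine lt_of_pow_lt_pow_left₀ 2 (by norm_num) ?_
  rw [← Complex.normSq_eq_norm_sq, Complex.normSq_apply]
  simp only [Complex.sub_re, Complex.ofReal_re, Complex.sub_im, Complex.ofReal_im, sub_zero]
  nlinarith

/-- One of twelve arcs containing a complex number. -/
noncomputable def arcCode (z : ℂ) : Fin 12 :=
  ⟨(⌈6 * z.arg / Real.pi⌉ + 5).toNat, by
    have h1 : 6 * z.arg / Real.pi ≤ 6 := by
      rw [div_le_iff₀ Real.pi_pos]; linarith [Complex.arg_le_pi z]
    have h2 : ⌈6 * z.arg / Real.pi⌉ ≤ 6 := Int.ceil_le.2 (by exact_mod_cast h1)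
    omega⟩

theorem re_gt_of_arcCode_eq {z w : ℂ} (hz : ‖z‖ = 1) (hw : ‖w‖ = 1) (h : arcCode z = arcCode w) :
    √3 / 2 < (z⁻¹ * w).re := by
  have hlow : ∀ u : ℂ, -6 < ⌈6 * u.arg / Real.pi⌉ := fun u => by
    rw [Int.lt_ceil, lt_div_iff₀ Real.pi_pos]
    push_cast
    linarith [Complex.neg_pi_lt_arg u]
  have h1 : ⌈6 * z.arg / Real.pi⌉ = ⌈6 * w.arg / Real.pi⌉ := by
    have := congrArg Fin.val h
    simp only [arcCode] at this
    have := hlow z
    have := hlow w
    omega
  have h2 : |6 * z.arg / Real.pi - 6 * w.arg / Real.pi| < 1 := by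
    have a1 := Int.le_ceil (6 * z.arg / Real.pi)
    have a2 := Int.ceil_lt_add_one (6 * z.arg / Real.pi)
    have a3 := Int.le_ceil (6 * w.arg / Real.pi)
    have a4 := Int.ceil_lt_add_one (6 * w.arg / Real.pi)
    rw [h1] at a1 a2
    rw [abs_lt]; constructor <;> linarith
  have h3 : |w.arg - z.arg| < Real.pi / 6 := by
    rw [← sub_div, ← mul_sub, abs_div, abs_mul, abs_of_pos Real.pi_pos,
      div_lt_one Real.pi_pos, abs_of_pos (by norm_num : (0 : ℝ) < 6)] at h2
    rw [abs_sub_comm]; linarith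
  have hz' := Complex.norm_mul_exp_arg_mul_I z
  have hw' := Complex.norm_mul_exp_arg_mul_I w
  rw [hz, Complex.ofReal_one, one_mul] at hz'
  rw [hw, Complex.ofReal_one, one_mul] at hw'
  have h4 : z⁻¹ * w = Complex.exp (((w.arg - z.arg : ℝ) : ℂ) * Complex.I) := by
    conv_lhs => rw [← hz', ← hw']
    rw [← Complex.exp_neg, ← Complex.exp_add]
    congr 1
    push_cast; ring
  rw [h4, Complex.exp_ofReal_mul_I_re, ← Real.cos_abs, ← Real.cos_pi_div_six]
  exact Real.cos_lt_cos_of_nonneg_of_le_pi (abs_nonneg _) (by linarith [Real.pi_pos]) h3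

end Arc

/-- A finite group with a faithful character of degree `n` has an abelian normal subgroup `A` with
`[H : H ∩ A] ≤ 12 ^ n` for every abelian subgroup `H`. -/
theorem exists_abelian_normal_relIndex_le {G : Type*} [Group G] [Finite G] {χ : G → ℂ}
    (hχ : IsCharacter G χ) (hfaith : charKer χ = ⊥) :
    ∃ A : Subgroup G, A.Normal ∧ (∀ x ∈ A, ∀ y ∈ A, x * y = y * x) ∧
      ∀ H : Subgroup G, (∀ x ∈ H, ∀ y ∈ H, x * y = y * x) →
        A.relIndex H ≤ 12 ^ charDegree χ := by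
  classical
  obtain ⟨n, ρ, rfl, hρ⟩ := hχ.exists_unitary
  have hinj : Function.Injective ρ := by
    rw [← MonoidHom.ker_eq_bot_iff, ← charKer_rep, hfaith]
  let S : Set G := {g | ∀ (μ : ℂ) v, v ≠ 0 → ρ g v = μ • v → √3 / 2 < μ.re}
  have hS : ∀ g ∈ S, ‖repCL ρ g - algebraMap ℂ _ ((√3 / 2 : ℝ) : ℂ)‖ < 1 / 2 := by
    intro g hg
    refine norm_repCL_sub_lt hρ g _ (by norm_num) fun μ v hv h => ?_
    refine norm_sub_lt_half_of_re ?_ (hg μ v hv h)
    have := hρ g v
    rw [h, norm_smul] at this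
    exact mul_right_cancel₀ (norm_ne_zero_iff.2 hv) (this.trans (one_mul _).symm)
  have hS' : ∀ g ∈ S, ‖repCL ρ g - 1‖ < 1 := by
    intro g hg
    rw [← map_one (algebraMap ℂ (EuclideanSpace ℂ (Fin n) →L[ℂ] EuclideanSpace ℂ (Fin n)))]
    refine norm_repCL_sub_lt hρ g 1 one_pos fun μ v hv h => ?_
    have h1 : ‖μ‖ = 1 := by
      have := hρ g v
      rw [h, norm_smul] at this
      exact mul_right_cancel₀ (norm_ne_zero_iff.2 hv) (this.trans (one_mul _).symm)
    have h2 := hg μ v hv h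
    have h3 : 1 < √3 := Real.lt_sqrt_of_sq_lt (by norm_num)
    have h4 : μ.re * μ.re + μ.im * μ.im = 1 := by
      rw [← Complex.normSq_apply, Complex.normSq_eq_norm_sq, h1, one_pow]
    refine lt_of_pow_lt_pow_left₀ 2 (by norm_num) ?_
    rw [← Complex.normSq_eq_norm_sq, Complex.normSq_apply]
    simp only [Complex.sub_re, Complex.one_re, Complex.sub_im, Complex.one_im, sub_zero]
    nlinarith
  have hcomm : ∀ a ∈ S, ∀ b ∈ S, a * b = b * a := fun a ha b hb =>
    commute_of_close hρ hinj (hS a ha) b (hS' b hb)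
  have hconj : ∀ g ∈ S, ∀ x : G, x * g * x⁻¹ ∈ S := by
    intro g hg x μ v hv h
    refine hg μ (ρ x⁻¹ v) (fun h0 => hv ?_) ?_
    · rw [← self_inv_apply ρ x v, h0, map_zero]
    · rw [← map_smul, ← h, ← Module.End.mul_apply, ← Module.End.mul_apply, ← map_mul, ← map_mul]
      congr 2; group
  refine ⟨Subgroup.closure S, ?_, ?_, fun H hH => ?_⟩
  · refine ⟨fun g hg x => ?_⟩
    induction hg using Subgroup.closure_induction with
    | mem g hg => exact Subgroup.subset_closure (hconj g hg x)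
    | one => simp [one_mem]
    | mul a b _ _ ha hb =>
      rw [show x * (a * b) * x⁻¹ = x * a * x⁻¹ * (x * b * x⁻¹) by group]; exact mul_mem ha hb
    | inv a _ ha =>
      rw [show x * a⁻¹ * x⁻¹ = (x * a * x⁻¹)⁻¹ by group]; exact inv_mem ha
  · intro x hx y hy
    have := Subgroup.isMulCommutative_closure (k := S) hcomm
    exact congrArg Subtype.val (this.is_comm.comm (⟨x, hx⟩ : Subgroup.closure S) ⟨y, hy⟩)
  · have := Fintype.ofFinite H
    have : Finite (H →* ℂˣ) := Nat.finite_of_card_ne_zero (by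
      rw [card_hom_units]; exact Subgroup.index_ne_zero_of_finite)
    have := Fintype.ofFinite (H →* ℂˣ)
    let Λ : Finset (H →* ℂˣ) := Finset.univ.filter fun lam =>
      classInner (fun h : H => ρ.character h) (fun h => (lam h : ℂ)) ≠ 0
    have hΛ : Λ.card ≤ charDegree ρ.character :=
      ((isCharacter_rep ρ).restrict H).card_hom_le Λ fun lam h => (Finset.mem_filter.1 h).2
    let code : H → (Λ → Fin 12) := fun h lam => arcCode (lam.1 h)
    have hcode : ∀ x y : H, code x = code y → ((x⁻¹ * y : H) : G) ∈ S := by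
      intro x y hxy μ v hv h
      obtain ⟨lam, h1, rfl⟩ := exists_constituent_of_eigenvalue (ρ.comp H.subtype)
        (fun a b => Subtype.ext (hH a a.2 b b.2)) (x := x⁻¹ * y) hv h
      have hn : ∀ u : H, ‖(lam u : ℂ)‖ = 1 := fun u =>
        Complex.norm_eq_one_of_pow_eq_one (n := orderOf u) (by
          rw [← Units.val_pow_eq_pow_val, ← map_pow, pow_orderOf_eq_one, map_one, Units.val_one])
          (orderOf_pos u).ne'
      rw [map_mul, map_inv, Units.val_mul, Units.val_inv_eq_inv_val]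
      exact re_gt_of_arcCode_eq (hn x) (hn y)
        (congrFun hxy ⟨lam, Finset.mem_filter.2 ⟨Finset.mem_univ _, h1⟩⟩)
    have hinj' : Function.Injective
        (fun q : H ⧸ (Subgroup.closure S).subgroupOf H => code q.out) := by
      intro q q' h
      rw [← q.out_eq', ← q'.out_eq', QuotientGroup.eq, Subgroup.mem_subgroupOf]
      exact Subgroup.subset_closure (hcode _ _ h)
    calc (Subgroup.closure S).relIndex H ≤ Nat.card (Λ → Fin 12) :=
          Nat.card_le_card_of_injective _ hinj'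
      _ = 12 ^ Λ.card := by simp
      _ ≤ _ := Nat.pow_le_pow_right (by norm_num) hΛ

end H28
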