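/- U4 tower (row S5210), chapter q = 3, slot K1: the centralizer of `Q` in the stabiliser of `v`. -/
import Cfsg.Agent.H90.Q3Spec

set_option autoImplicit false

open Subgroup H28.U4 H77 Cfsg H90.Q3
open H72 (ix)

namespace H28.Q3K

/-- the trace over `⟨g⟩` -/
noncomputable def Tr (g : Co0) : leechLattice →+ leechLattice := AddMonoidHom.id _ + co0Hom g + co0Hom (g * g)

theorem Tr_apply (g : Co0) (x : leechLattice) : Tr g x = x + g • x + g • g • x := by
  rw [← mul_smul]; rfl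

theorem Tr_comm {g c : Co0} (h : c * g = g * c) (x : leechLattice) : Tr g (c • x) = c • Tr g x := by
  have e : ∀ y : leechLattice, g • c • y = c • g • y := fun y => by rw [← mul_smul, ← h, mul_smul]
  simp only [Tr_apply, smul_add_co0, e]

theorem Tr_sub {g c : Co0} (h : c * g = g * c) (ε : ℤ) (x : leechLattice) :
    Tr g (c • x - ε • x) = c • Tr g x - ε • Tr g x := by rw [map_sub, map_zsmul, Tr_comm h]

theorem dt_Tr {g : Co0} {y : leechLattice} (h : g • y = y) (x : leechLattice) : dt y (Tr g x) = 3 * dt y x := by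
  have e : ∀ x, dt y (g • x) = dt y x := fun x => by rw [← dt_smul g y x, h]
  rw [Tr_apply, dt_add_right, dt_add_right, e, e, e]; ring

/-- the action on codes -/
noncomputable def ac (u : Co T9) : ℕ → ℕ := actW LQ (wq u)
/-- the trace on codes -/
noncomputable def tc (u : Co T9) (c : ℕ) (p : GolayPt) : ℤ := dec c p + dec (ac u c) p + dec (ac u (ac u c)) p

theorem ac_code (u : Co T9) {x : leechLattice} (h : Short x) : ac u (code x) = code (io u • x) := by
  rw [io_eq]; exact actW_code inLQ _ h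

theorem coe_Tr (u : Co T9) {x : leechLattice} (h : Short x) (p : GolayPt) :
    (Tr (io u) x : GolayPt → ℤ) p = tc u (code x) p := by
  rw [tc, ac_code u h, ac_code u (h.smul _), Tr_apply]
  simp only [code, dec_enc h.bd, dec_enc (h.smul _).bd, dec_enc ((h.smul _).smul _).bd]
  rfl

theorem Tr_vec (u : Co T9) {c a b : ℕ}
    (h : (isS c && isS a && isS b && decide (∀ p, tc u c p = dec a p - dec b p)) = true) :
    Tr (io u) (vecOf c) = vecOf a - vecOf b := by
  simp only [Bool.and_eq_true, decide_eq_true_eq] at h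
  ext p
  rw [coe_Tr u (short_vecOf h.1.1.1), code_vecOf (isLc_of_isS h.1.1.1), h.2, AddSubgroup.coe_sub,
    coe_vecOf (isLc_of_isS h.1.1.2), coe_vecOf (isLc_of_isS h.1.2)]
  rfl

theorem io_vec (u : Co T9) {c d : ℕ} (h : (isS c && isS d && Nat.beq (ac u c) d) = true) :
    io u • vecOf c = vecOf d := by
  simp only [Bool.and_eq_true, Nat.beq_eq] at h
  rw [io_eq]; exact elW_smul _ h.1.1 h.1.2 h.2

/-- the orbit of `y` -/
def cj (j : Fin 27) : ℕ := cY.getD j 0
/-- the orbit of `y` -/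
def Y (j : Fin 27) : leechLattice := vecOf (cj j)

theorem isS_cj : ∀ j, isS (cj j) = true := by decide +kernel

theorem nm_Y (j : Fin 27) : nm (Y j) = 48 := nm_vecOf (by revert j; decide +kernel)

theorem orb (j : Fin 27) : ∃ a b d, io (el (⟨a, b⟩, 0) 0 d) • Y 0 = Y j := by
  have : ∀ j, ∃ a b d, (isS (cj 0) && isS (cj j) && Nat.beq (ac (el (⟨a, b⟩, 0) 0 d) (cj 0)) (cj j)) = true := by
    decide +kernel
  exact let ⟨a, b, d, h⟩ := this j; ⟨a, b, d, io_vec _ h⟩

theorem orbZ (j : Fin 27) (h : j.1 < 3) : ∃ d, io (el 0 0 d) • Y 0 = Y j := by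
  have : ∀ j : Fin 27, j.1 < 3 → ∃ d, (isS (cj 0) && isS (cj j) && Nat.beq (ac (el 0 0 d) (cj 0)) (cj j)) = true := by
    decide +kernel
  exact let ⟨d, h⟩ := this j h; ⟨d, io_vec _ h⟩

theorem Tr_Y (u : Co T9) (j : Fin 27)
    (h : (isS (cj j) && isS cv && isS cv && decide (∀ p, tc u (cj j) p = dec cv p - dec cv p)) = true) :
    Tr (io u) (Y j) = 0 := (Tr_vec _ h).trans (sub_self _)

theorem zer (j : Fin 27) (h : 3 ≤ j.1) : ∃ k, io (sc (bs k)) • Y 0 = Y 0 ∧ Tr (io (sc (bs k))) (Y j) = 0 := by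
  have : ∀ j : Fin 27, 3 ≤ j.1 → ∃ k, (isS (cj 0) && isS (cj 0) && Nat.beq (ac (sc (bs k)) (cj 0)) (cj 0)) = true ∧
      (isS (cj j) && isS cv && isS cv && decide (∀ p, tc (sc (bs k)) (cj j) p = dec cv p - dec cv p)) = true := by
    decide +kernel
  exact let ⟨k, h, h'⟩ := this j h; ⟨k, io_vec _ h, Tr_Y _ _ h'⟩

theorem dt_zsmul (n : ℤ) (x y : leechLattice) : dt x (n • y) = n * dt x y := H79.dotInt_smul_right _ _ _

theorem dt_zero (x : leechLattice) : dt x 0 = 0 := by simpa using dt_zsmul 0 x 0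

theorem nm_zsmul (n : ℤ) (x : leechLattice) : nm (n • x) = n ^ 2 * nm x := H79.sqNorm_smul _ _

/-- the dot product as an additive map -/
def dH (y : leechLattice) : leechLattice →+ ℤ := AddMonoidHom.mk' (dt y) (dt_add_right y)

theorem hom_ext {f g : leechLattice →+ leechLattice} (e : ∀ p, f (eight p) = g (eight p)) (x : leechLattice) :
    f x = g x := by
  have hx : (8 : ℤ) • x = ∑ q, (x : GolayPt → ℤ) q • eight q := by
    apply Subtype.ext
    rw [AddSubgroup.val_finsetSum]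
    funext r
    simp [eight, Finset.sum_apply, Pi.single_apply, mul_comm]
  have h1 : f ((8 : ℤ) • x) = g ((8 : ℤ) • x) := by
    rw [hx, map_sum, map_sum]
    exact Finset.sum_congr rfl fun q _ => by rw [map_zsmul, map_zsmul, e]
  rw [map_zsmul, map_zsmul] at h1
  ext p
  exact mul_left_cancel₀ (by norm_num : (8 : ℤ) ≠ 0) (congrArg (fun y : leechLattice => (y : GolayPt → ℤ) p) h1)

/-- the frame identity -/
theorem frame (x : leechLattice) : (24 : ℤ) • ((3 : ℤ) • x - Tr (io zz) x) = ∑ j, dt (Y j) x • Y j := by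
  have key : ∀ p q, 24 * (3 * dec (e8 (ix p)) q - tc zz (e8 (ix p)) q) = ∑ j, (8 * dec (cj j) p) * dec (cj j) q := by
    decide +kernel
  have := hom_ext (f := (24 : ℤ) • ((3 : ℤ) • AddMonoidHom.id _ - Tr (io zz)))
    (g := ∑ j, (zmultiplesHom _ (Y j)).comp (dH (Y j))) (fun p => ?_) x
  · simpa [dH] using this
  ext q
  have e : code (eight p) = e8 (ix p) := by rw [← code_eight (H72.ix_lt p), H72.pt_ix]
  have e' : (eight p : GolayPt → ℤ) = dec (e8 (ix p)) := by rw [← e, code, dec_enc (short_eight p).bd]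
  have k := key p q
  rw [← e', ← e, ← coe_Tr zz (short_eight p)] at k
  refine k.trans ?_
  rw [AddMonoidHom.finsetSum_apply, AddSubgroup.val_finsetSum, Finset.sum_apply]
  refine Finset.sum_congr rfl fun j _ => ?_
  rw [← coe_vecOf (isLc_of_isS (isS_cj j))]
  exact congrArg (· * _) (H79.dotInt_single_right p 8 _).symm

theorem eq_of_lt {x : leechLattice} (h : nm x < 32) : x = 0 :=
  by_contra fun k => h.not_ge (H79.le_sqNorm x.2 fun e => k (Subtype.ext e))

theorem small {a b δ : leechLattice} (ha : nm a = 48) (hb : nm b = 48) (h : (3 : ℤ) • δ = a - b) : a = b := by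
  have h2 := congrArg nm h
  have h3 := nm_add a b
  have h4 : 0 ≤ nm (a + b) := H79.sqNorm_nonneg _
  rw [nm_zsmul, nm_sub] at h2
  rw [eq_of_lt (x := δ) (by omega), smul_zero] at h
  exact sub_eq_zero.1 h.symm

theorem fix_sub {c : Co0} {a b : leechLattice} (h : c • a = a) (k : c • (a - b) = (1 : ℤ) • (a - b)) : c • b = b :=
  sub_right_injective (((congrArg (· - c • b) h.symm).trans ((co0Hom c).map_sub a b).symm).trans (k.trans (one_smul _ _)))

theorem key {c : Co0} (hc : ∀ u ∈ sQ T9, c * io u = io u * c) (hv : c • vv = vv) {ε : ℤ} (hε : ε * ε = 1)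
    (hy : c • Y 0 = ε • Y 0) : c • vw = vw ∧ c • v4 = v4 := by
  have hY : ∀ j, c • Y j = ε • Y j := fun j => by
    obtain ⟨a, b, d, e⟩ := orb j
    rw [← e, ← mul_smul, hc _ rfl, mul_smul, hy]
    exact (co0Hom _).map_zsmul _ _
  have hT : ∀ x, nm (Tr (io zz) x) = 48 → c • Tr (io zz) x = ε • Tr (io zz) x := fun x hx => by
    have h1 := frame (c • x - ε • x)
    rw [Finset.sum_eq_zero fun j _ => ?_, smul_eq_zero, or_iff_right (by norm_num), sub_eq_zero] at h1
    · exact small ((nm_smul _ _).trans hx) (by rw [nm_zsmul, hx, sq, hε, one_mul])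
        (h1.trans (Tr_sub (hc _ rfl) ε x))
    · have h := dt_smul c (Y j) x
      rw [hY, dt_comm, dt_zsmul, dt_comm] at h
      rw [dt_sub_right, dt_zsmul, ← h, ← mul_assoc, hε, one_mul, sub_self, zero_smul]
  have t1 : Tr (io zz) (vecOf cx1) = vv - vw := Tr_vec _ (by decide +kernel)
  have t2 : Tr (io zz) (vecOf cx2) = vw - v4 := Tr_vec _ (by decide +kernel)
  have n1 : nm vv = 32 := nm_vecOf (by decide +kernel)
  have n2 : nm vw = 32 := nm_vecOf (by decide +kernel)
  have n3 : nm v4 = 32 := nm_vecOf (by decide +kernel)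
  have d1 : dt vv vw = 8 := dt_vecOf (by decide +kernel)
  have d2 : dt vw v4 = 8 := dt_vecOf (by decide +kernel)
  have h1 := hT (vecOf cx1) (by rw [t1, nm_sub, n1, n2, d1]; rfl)
  have h2 := hT (vecOf cx2) (by rw [t2, nm_sub, n3, n2, d2]; rfl)
  rw [t1] at h1
  rw [t2] at h2
  have h3 := dt_smul c vv (vv - vw)
  rw [h1, hv, dt_zsmul, dt_sub_right, dt_self, n1, d1] at h3
  obtain rfl : ε = 1 := by omega
  exact ⟨fix_sub hv h1, fix_sub (fix_sub hv h1) h2⟩

theorem near {c : Co0} (hc : ∀ u ∈ sQ T9, c * io u = io u * c) :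
    ∃ j : Fin 27, j.1 < 3 ∧ ∃ ε : ℤ, ε * ε = 1 ∧ c • Y 0 = ε • Y j := by
  have t : Tr (io zz) (Y 0) = 0 := Tr_Y _ _ (by decide +kernel)
  have h0 : ∀ j : Fin 27, 3 ≤ j.1 → dt (c • Y 0) (Y j) = 0 := fun j hj => by
    obtain ⟨k, a, b⟩ := zer j hj
    have := dt_Tr (g := io (sc (bs k))) (y := c • Y 0) (by rw [← mul_smul, ← hc _ rfl, mul_smul, a]) (Y j)
    rw [b, dt_zero] at this
    exact (mul_eq_zero.1 this.symm).resolve_left (by norm_num)
  have h1 := congrArg (dH (c • Y 0)) (frame (c • Y 0))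
  rw [Tr_comm (hc _ rfl), t, smul_zero_co0, sub_zero, map_sum, map_zsmul, map_zsmul] at h1
  have h2 : ∀ j, dH (c • Y 0) (dt (Y j) (c • Y 0) • Y j) = dt (c • Y 0) (Y j) ^ 2 := fun j => by
    rw [map_zsmul, dt_comm, sq]; rfl
  have h3 : dH (c • Y 0) (c • Y 0) = 48 := (dt_smul _ _ _).trans ((dt_self _).trans (nm_Y 0))
  simp only [h2, h3] at h1
  obtain ⟨j, hj, h⟩ : ∃ j : Fin 27, j.1 < 3 ∧ 32 ^ 2 < dt (c • Y 0) (Y j) ^ 2 := by
    by_contra! k
    have : ∑ j, dt (c • Y 0) (Y j) ^ 2 ≤ ∑ j : Fin 27, if j.1 < 3 then (32 : ℤ) ^ 2 else 0 :=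
      Finset.sum_le_sum fun j _ => by
        split_ifs with h
        exacts [k j h, by rw [h0 j (by omega)]; rfl]
    rw [← h1] at this
    revert this; decide +kernel
  have n := nm_smul c (Y 0)
  have m := nm_Y j
  rw [nm_Y] at n
  refine ⟨j, hj, ?_⟩
  rcases lt_abs.1 (lt_of_pow_lt_pow_left₀ 2 (abs_nonneg _) (h.trans_eq (sq_abs _).symm)) with h | h
  · exact ⟨1, rfl, by rw [one_smul]; exact sub_eq_zero.1 (eq_of_lt (by rw [nm_sub]; omega))⟩
  · exact ⟨-1, rfl, by rw [neg_one_smul]; exact eq_neg_of_add_eq_zero_left (eq_of_lt (by rw [nm_add]; omega))⟩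

theorem jobK1 : JobK1 := fun c hc hv => by
  obtain ⟨j, hj, ε, hε, e⟩ := near hc
  obtain ⟨d, hd⟩ := orbZ j hj
  have f : ∀ d, (isS cv && isS cv && Nat.beq (ac (el 0 0 d) cv) cv) = true ∧
      (isS cw && isS cw && Nat.beq (ac (el 0 0 d) cw) cw) = true ∧
      (isS c4 && isS c4 && Nat.beq (ac (el 0 0 d) c4) c4) = true := by decide +kernel
  have z : el 0 0 d ∈ sZ T9 := ⟨rfl, rfl, rfl⟩
  have := key (c := (io (el 0 0 d))⁻¹ * c) (fun u hu => by
      rw [mul_assoc, hc u hu, ← mul_assoc, ← mul_assoc, ← map_inv, ← map_mul, ← map_mul, comm_Z u (inv_mem z)])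
    (by rw [mul_smul, hv, inv_smul_eq_iff]; exact (io_vec _ (f d).1).symm) hε
    (by rw [mul_smul, e, ← hd, inv_smul_eq_iff]; exact ((co0Hom _).map_zsmul _ _).symm)
  simp only [mul_smul, inv_smul_eq_iff] at this
  exact ⟨this.1.trans (io_vec _ (f d).2.1), this.2.trans (io_vec _ (f d).2.2)⟩

end H28.Q3K
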