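/- U4 tower (row S5210): the assembly, generic part. -/
import Cfsg.Agent.H28.U4Gen
import Cfsg.Agent.H90.U5Asm
import Cfsg.Agent.H90.U5Q

set_option autoImplicit false
set_option linter.unusedSectionVars false
set_option linter.unusedSimpArgs false
set_option linter.unusedVariables false

open Subgroup H92 Cfsg H90.RF
open H90.U5 (BF DD lg_aY lg_mem exists_cj aut_le' not_ess)

universe u v

namespace H28.U4

/-- the slots for all fields -/
structure Jobs : Prop where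
  ZX : JobZX.{v}
  L0 : JobL0.{v}
  L1 : JobL1.{v}
  PE : JobPE.{v}
  AP : JobAP.{v}
  AS : JobAS.{v}
  A1 : JobA1.{v}
  In : JobIn.{v}
  Tri : JobTri.{v}
  NM : JobNM.{v}
  TI : JobTI.{v}
  Oa : JobOa.{v}
  Var : JobVar.{v}
  Fam : JobFam.{v}
  Ob : JobOb.{v}
  Oc : JobOc.{v}
  O5 : JobO5.{v}
  O6 : JobO6.{v}
  Bar : JobBar.{v}
  Opp2 : JobOpp2.{v}
  Opp : JobOpp.{v}
  Lo : JobLo.{v}
  Gn : JobGn.{v}
  N1 : JobN1.{v}
  Rig : JobRig.{v}
  Real : JobReal.{v}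

theorem real_of_le {Ω : Type u} [Group Ω] {S : Subgroup Ω} {F E : FusionSystem S} {p : ℕ} (l1 : F ≤ E)
    (l2 : E ≤ F) (h : E.IsRealizable p) : F.IsRealizable p := by
  obtain ⟨G, _, _, ι, re, hS⟩ := h
  exact ⟨G, _, ‹_›, ι, ⟨re.1, fun P h φ k => (Iff.intro (l1 P ·) (l2 P ·)).trans (re.2 P h φ k)⟩, hS⟩

theorem transfer {Ω : Type u} [Group Ω] {S : Subgroup Ω} {p : ℕ} [Fact p.Prime] {F : FusionSystem S}
    (hF : F.IsSaturated p) {P : Type v} [Group P] [Finite P] (e : S ≃* P)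
    (h : ∀ E : FusionSystem (⊤ : Subgroup P), E.IsSaturated p → E.IsRealizable p) : F.IsRealizable p := by
  let ψ : S →* P := e.toMonoidHom
  obtain ⟨b, hi⟩ := H94.exists_pIso (mulOn_ext1 ψ) fun x hx y hy h => by
    rw [ext1_of_mem ψ hx, ext1_of_mem ψ hy] at h
    exact congrArg Subtype.val (e.injective h)
  rw [← range_eq_img ψ fun x => (ext1_coe ψ x).symm, MonoidHom.range_eq_top.2 e.surjective] at hi
  obtain ⟨E, tr⟩ := hi.exists_tr F
  exact tr.symm.isRealizable' (h E (tr.isSaturated hF))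

section Co
variable {K : Type v} [Field K] [Finite K] {T : BF K} {p : ℕ}
variable {Y Y0 Y0' Y1 Y2 Y1' Y2' : Subgroup (Equiv.Perm (Co T))} {Γ : Subgroup (DD K)}

theorem ux_cj {θ : Co T → Co T} (a : Au ⊤ θ) (hA : Pr θ (sA T)) (c : K) {u : Co T} (hu : u ∈ sA T) :
    θ (ux T c u) = ux T (θ (xa T c)).a (θ u) := by
  rw [ux_apply c hu, a.conj trivial trivial, ← iS_eq, iS_mem _ (hA u hu)]

theorem ux_cj' (ap : AP T) (θ : MulAut (Co T)) (c : K) (u : Co T) :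
    θ (ux T c u) = ux T (θ (xa T c)).a (θ u) := by
  have hA := (ap θ (au_aut θ)).2.2.1
  by_cases hu : u ∈ sA T
  · exact ux_cj (au_aut θ) hA c hu
  · rw [ux_out c hu, ux_out _ fun k => hu ((au_aut θ).mem_of le_top hA trivial k)]

theorem pr_cj {θ : MulAut (Co T)} {X : Subgroup (Co T)} (h : Pr θ X) {α y : Co T → Co T}
    (e : ∀ c, α (θ c) = θ (y c)) : Pr α X ↔ Pr y X :=
  ⟨fun k c hc => (au_aut θ).mem_of le_top h trivial (e c ▸ k _ (h c hc)), fun k c hc => by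
    obtain ⟨d, hd, rfl⟩ := (au_aut θ).sur_of le_top h c hc
    rw [e]; exact h _ (k d hd)⟩

theorem pz_cj (ap : AP T) {θ : MulAut (Co T)} {α y : Co T → Co T} (e : ∀ c, α (θ c) = θ (y c)) :
    PZ T α ↔ PZ T y :=
  and_congr (pr_cj (ap θ (au_aut θ)).1 e) (pr_cj (ap θ (au_aut θ)).2.1 e)

theorem mc_cj (ap : AP T) (θ : MulAut (Co T)) (c : K) : Mc T c (cjY θ Y) ↔ Mc T (θ (xa T c)).a Y := by
  have k : ∀ α y : Equiv.Perm (Co T), (∀ c, α (θ c) = θ (y c)) →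
      (y * ux T c = ux T c * y ↔ α * ux T (θ (xa T c)).a = ux T (θ (xa T c)).a * α) := fun α y e =>
    ⟨fun h => Equiv.ext fun w => by
      obtain ⟨u, rfl⟩ := θ.surjective w
      have := congrArg (fun f => θ (f u)) h
      simp only [Equiv.Perm.mul_apply] at this ⊢
      rw [← ux_cj' ap, e, this, ux_cj' ap, e],
    fun h => Equiv.ext fun u => θ.injective (by
      have := congrArg (fun f => f (θ u)) h
      simp only [Equiv.Perm.mul_apply] at this ⊢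
      rw [← e, ux_cj' ap, this, ux_cj' ap, e])⟩
  constructor
  · rintro ⟨y, hy, h, m⟩
    obtain ⟨α, hα, e⟩ := mem_cjY.1 hy
    exact ⟨α, hα, (k α y e).1 h, fun q => m ((pz_cj ap e).1 q)⟩
  · rintro ⟨α, hα, h, m⟩
    obtain ⟨y, hy, e⟩ := exists_cjY θ hα
    exact ⟨y, hy, (k α y e).2 h, fun q => m ((pz_cj ap e).2 q)⟩

theorem NM.cj (ap : AP T) (θ : MulAut (Co T)) (h : NM T Y) : NM T (cjY θ Y) := fun c hc m =>
  h _ (fun k => hc ((au_aut θ).mem_of le_top (ap θ (au_aut θ)).2.2.1 (c := xa T c) trivial k)) ((mc_cj ap θ c).1 m)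

theorem Mc.res (ap : AP T) (t : Tri T p Y0 Y1 Y2) {y : Equiv.Perm (Co T)} (hy : y ∈ Y0) {c : K} (h : Mc T c Y2) :
    Mc T (y (xa T c)).a Y2 := by
  obtain ⟨α, hα, h, m⟩ := h
  obtain ⟨η, hη, e⟩ := t.res2 y hy
  obtain ⟨a1, a2, a3, -⟩ := ap y (t.l0.au y hy)
  have pz : PZ T η := ⟨fun u hu => e u (Z_le_A hu) ▸ a1 u hu, fun u hu => e u hu.1 ▸ a2 u hu⟩
  have k : η * ux T c = ux T (y (xa T c)).a * η :=
    t.sa.lg.ext (mul_mem hη (t.sa.ux_mem _)) (mul_mem (t.sa.ux_mem _) hη) fun u hu => by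
      simp only [Equiv.Perm.mul_apply]
      rw [e _ (ux_co c hu).1, e u hu, ux_cj (t.l0.au y hy) a3 c hu]
  refine ⟨η * α * η⁻¹, mul_mem (mul_mem hη hα) (inv_mem hη), ?_, fun q => m (pz.of_mul_left (pz.inv.of_mul_right q))⟩
  rw [show ux T (y (xa T c)).a = η * ux T c * η⁻¹ by rw [k]; group]
  calc _ = η * (α * ux T c) * η⁻¹ := by group
    _ = _ := by rw [h]; group

theorem cjY_fix {X : Subgroup (Co T)} (l : Lg X Y) {θ : MulAut (Co T)} (h : ∀ u ∈ X, θ u = u) : cjY θ Y = Y := by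
  have k : ∀ y ∈ Y, ∀ c, y (θ c) = θ (y c) := fun y hy c => by
    by_cases hc : c ∈ X
    · rw [h c hc, h _ ((l.au y hy).mem c hc)]
    · rw [l.out y hy c hc, l.out y hy _ fun q => hc (by rwa [θ.injective (h _ q)] at q)]
  ext y
  refine ⟨fun hy => ?_, fun hy => mem_cjY.2 ⟨y, hy, k y hy⟩⟩
  obtain ⟨α, hα, e⟩ := mem_cjY.1 hy
  rwa [show y = α from Equiv.ext fun c => θ.injective ((e c).symm.trans (k α hα c))]

theorem det1 (o : Om1 T (gW T Y1)) (t : Tri T p Y0 Y1 Y2) (t' : Tri T p Y0 Y1' Y2') (n : N1 T Y1)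
    (n' : N1 T Y1') : Y1 ≤ Y1' := by
  have k : ∀ α ∈ Y1, Pr α (sD T) → α ∈ Y1' := fun α hα p => by
    obtain ⟨y, hy, e⟩ := t.ext1 α hα p
    obtain ⟨β, hβ, e'⟩ := t'.res1 y hy
    exact lg_mem t.l1 t'.l1 hα hβ fun c hc => (e c hc).trans (e' c hc).symm
  intro α hα
  obtain ⟨g, hg, eg⟩ := exists_gW t.l1 hα
  rcases o g hg with q | ⟨b, hb, q⟩
  · exact k α hα ((pl_iff (t.l1.au α hα) eg).1 q)
  obtain ⟨ν, hν, e⟩ := n
  obtain ⟨ν', hν', e'⟩ := n'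
  obtain ⟨y, hy, f⟩ := t.inn (xb T b hb)
  obtain ⟨γ, hγ, f'⟩ := t.res1 y hy
  have h1 := k γ hγ fun c hc => by rw [f' c hc.2, f]; exact nD.conj_mem c hc _
  have h2 := lg_mem t.l1 t'.l1 hν hν' fun c hc => (e c hc).trans (e' c hc).symm
  have h3 := k _ (mul_mem hν (mul_mem hγ hα)) fun c hc => by
    have m := (t.l1.au α hα).mem c hc.2
    rw [Equiv.Perm.mul_apply, Equiv.Perm.mul_apply, f' _ m, f, e _ (nQ.conj_mem _ m _)]
    refine ⟨(congrArg Prod.snd (cj_Q' _ m)).trans ?_, rfl⟩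
    rw [eg c hc.2, ub_apply, q _ hc.1]
    simp [xb]
  exact (Y1'.mul_mem_cancel_left h1).1 ((Y1'.mul_mem_cancel_left h2).1 h3)

theorem det2 (s : St2 T Y2) (s' : St2 T Y2') (t : Tri T p Y0 Y1 Y2) (t' : Tri T p Y0 Y1' Y2') : Y2 ≤ Y2' := by
  have k : ∀ α ∈ Y2, PZ T α → α ∈ Y2' := fun α hα p => by
    obtain ⟨y, hy, e⟩ := t.ext2 α hα p
    obtain ⟨β, hβ, e'⟩ := t'.res2 y hy
    exact lg_mem t.sa.lg t'.sa.lg hα hβ fun c hc => (e c hc).trans (e' c hc).symm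
  intro α hα
  rcases s.om α hα with q | ⟨x, q⟩
  · exact k α hα q
  obtain ⟨ν, hν, e⟩ := s.n2
  obtain ⟨ν', hν', e'⟩ := s'.n2
  have h2 := lg_mem t.sa.lg t'.sa.lg hν hν' fun c hc => (e c hc).trans (e' c hc).symm
  have h3 := k _ (mul_mem hν (mul_mem (t.sa.ux_mem x) hα)) ⟨fun c hc => by
      have m := q.1 c hc
      obtain ⟨a, b, c', -⟩ := nu2_A m.1
      rw [Equiv.Perm.mul_apply, e _ m.1]
      exact ⟨a, b.trans m.2.2, by rw [c', m.2.1]; simp⟩,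
    fun c hc => by
      have m := q.2 c hc
      rw [Equiv.Perm.mul_apply, e _ m.1]
      exact ⟨rfl, (nu2_A m.1).2.1.trans m.2⟩⟩
  exact (Y2'.mul_mem_cancel_left (t'.sa.ux_mem x)).1 ((Y2'.mul_mem_cancel_left h2).1 h3)

/-- the singular vectors of `A` -/
def Cone (u : Co T) : Prop := u.a = 0 ∧ u.b * u.d = u.c * T.σ u.c

theorem Cone.ux {u : Co T} (h : Cone u) (t : K) : Cone (ux T t u) := by
  obtain ⟨a, b, c, d⟩ := ux_co t h.1
  refine ⟨a, ?_⟩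
  rw [b, c, d, map_add, map_mul, u.hb]
  linear_combination h.2

theorem St2.cone (s : St2 T Y) (a : Sa T p Y) {α : Equiv.Perm (Co T)} (hα : α ∈ Y) {u : Co T} (h : Cone u) :
    Cone (α u) := by
  have k : ∀ α ∈ Y, ∀ z ∈ sZ T, Cone (α z) := fun α hα z hz => by
    rcases s.om α hα with q | ⟨x, q⟩
    · exact ⟨(q.1 z hz).1, by simp [(q.1 z hz).2.1, (q.1 z hz).2.2]⟩
    · have m := q.1 z hz
      have := Cone.ux (u := (ux T x * α) z) ⟨m.1, by rw [m.2.1, m.2.2]; simp⟩ (-x)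
      simpa [ux_neg] using this
  by_cases hb : u.b = 0
  · exact k α hα u ⟨h.1, hb, by simpa [hb] using h.2⟩
  obtain ⟨ν, hν, e⟩ := s.n2
  have := k _ (mul_mem hα (mul_mem (a.ux_mem (u.c / u.b)) hν)) (xd T u.b u.hb) ⟨rfl, rfl, rfl⟩
  rwa [Equiv.Perm.mul_apply, Equiv.Perm.mul_apply, e _ rfl, show ux T (u.c / u.b) (xd T u.b u.hb).nu2 = u by
    obtain ⟨a, b, c, d⟩ := ux_co (u.c / u.b) (u := (xd T u.b u.hb).nu2) rfl
    refine Co.ext (a.trans h.1.symm) (by simpa [xd, Co.nu2] using b) ?_ ?_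
    · rw [c]; simp [xd, Co.nu2, hb]
    · rw [d]; simp [xd, Co.nu2, hb]; field_simp; linear_combination -h.2] at this

theorem eq_xb (u : Co T) : ∃ w ∈ sQ T, u = xb T u.b u.hb * w :=
  ⟨(xb T u.b u.hb)⁻¹ * u, by simp [mem_sQ, xb], by simp⟩

theorem eq0 (ap : AP T) (t : Tri T p Y0 Y1 Y2) (t' : Tri T p Y0' Y1 Y2') (s : St2 T Y2) (s' : St2 T Y2') :
    Y0 ≤ Y0' := fun y hy => by
  obtain ⟨β, hβ, e⟩ := t.res1 y hy
  have a := t.l0.au y hy
  obtain ⟨y', hy', e'⟩ := t'.ext1 β hβ fun u hu => e u hu.2 ▸ (ap y a).2.1 u hu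
  have a' := t'.l0.au y' hy'
  have q : ∀ u ∈ sQ T, y u = y' u := fun u hu => (e u hu).symm.trans (e' u hu)
  have k : ∀ b hb, y (xb T b hb) = y' (xb T b hb) := fun b hb => by
    obtain ⟨m, -, hm⟩ := a'.sur (y (xb T b hb)) trivial
    have c : ∀ w ∈ sQ T, m * w * m⁻¹ = xb T b hb * w * (xb T b hb)⁻¹ := fun w hw => y'.injective (by
      rw [a'.conj trivial trivial, hm, ← q w hw, ← a.conj trivial trivial, q _ (nQ.conj_mem w hw _)])
    have mb : m.b = b := by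
      have := congrArg Co.c (c (xa T 1) rfl)
      simp [xa, xb] at this
      linear_combination -this
    have ma : m.a = 0 := (a'.mem_of le_top (ap y' a').2.2.1 trivial (hm ▸ (ap y a).2.2.1 _ rfl) :)
    have mc : m.c = 0 := by
      by_contra hc
      obtain ⟨x, hx⟩ := exists_tr_ne (T := T) hc
      have := congrArg Co.d (c (xa T x) rfl)
      simp [xa, xb, ma, mb, hb, Co.σd] at this
      exact hx (by linear_combination -this)
    obtain ⟨α, hα, f⟩ := t.res2 y hy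
    obtain ⟨α', hα', f'⟩ := t'.res2 y' hy'
    have := s'.cone t'.sa (inv_mem hα') (s.cone t.sa hα (u := xb T b hb) ⟨rfl, by simp [xb]⟩)
    rw [f _ rfl, ← hm, ← f' m ma, Equiv.Perm.coe_inv, Equiv.symm_apply_apply] at this
    by_cases h0 : b = 0
    · exact q _ h0
    · rw [← hm]
      exact congrArg y' (Co.ext ma mb mc (by simpa [mc, mb, h0, xb] using this.2))
  rwa [show y = y' from Equiv.ext fun u => by
    obtain ⟨w, hw, e⟩ := eq_xb u
    rw [e, a.mul _ trivial _ trivial, a'.mul _ trivial _ trivial, k, q w hw]]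

theorem hh_of (ap : AP T) (t : Tri T p Y0 Y1 Y2) (s : St1 T (gW T Y1)) (h : Pm T ∨ G2 T) : HH T Y0 := by
  rcases h with h | ⟨l, hl, h0, h1⟩
  · exact Or.inl h
  obtain ⟨α, hα, a, e⟩ := s.tor (Units.mk0 l h0) hl
  obtain ⟨y, hy, f⟩ := t.ext1 α hα ((pl_iff a e).1 fun w hw => by simp [hs_apply, hw])
  have ay := t.l0.au y hy
  have k : ∀ u ∈ sQ T, (y u).π = (l⁻¹ * u.a, l * u.c) := fun u hu => by rw [← f u hu, e u hu, hs_apply]; rfl
  refine Or.inr ⟨y, hy, l, hl, h0, h1, fun u => ?_, fun u hu => congrArg Prod.snd (k u hu.2), fun u hu => ?_⟩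
  · obtain ⟨w, hw, q⟩ := eq_xb u
    have h2 : (y (xb T u.b u.hb)).a = 0 := (ap y ay).2.2.1 _ rfl
    have h3 : (y w).a = l⁻¹ * w.a := congrArg Prod.fst (k w hw)
    rw [q, ay.mul _ trivial _ trivial, Co.mul_a, Co.mul_a, h2, h3]
    simp [xb]
  · obtain ⟨x, rfl⟩ := Z_cm hu
    have m := fun u hu => (ap y ay).2.2.2 u hu
    rw [ay.cm trivial trivial]
    refine eq_of_Z (cm_Q (m _ rfl) (m _ rfl)) hu ?_
    rw [cm_dQ (m _ rfl) (m _ rfl), k _ rfl, k _ rfl, cm_dQ rfl rfl]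
    simp [bf, xa, xc, Co.π, hl]
    field_simp

variable [Fact p.Prime] [CharP K p]

theorem Jobs.ap (J : Jobs.{v}) (p : ℕ) [Fact p.Prime] [CharP K p] : U4.AP T := J.AP p K T
theorem Jobs.aS (J : Jobs.{v}) (p : ℕ) [Fact p.Prime] [CharP K p] : U4.AS T := J.AS p K T (J.AP p K T)
theorem Jobs.ta (J : Jobs.{v}) : TA T p := J.Tri p K T (J.AP p K T)

theorem Jobs.ess (J : Jobs.{v}) (hem : ¬ G2 T → (2 : K) = 0 → ∀ F : FusionSystem (⊤ : Subgroup (Co T)),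
    F.IsSaturated p → ∀ c, c ≠ 0 → F.IsEssential p (cE T c) → Mc T c (aY F (sA T))) : Ess T p := by
  intro F hF E hE
  obtain ⟨i, hi, M, h⟩ := H90.U5.jobD H90.U5.jobQ p (Co T) (pgroup_Co p) F hF E hE (zA T) 3 rfl
    (fun i => by
      rcases i with _ | _ | _ | i
      exacts [bot_le, Z_le, D_le_A, le_rfl])
    (fun i hi c hc => by
      interval_cases i
      · exact ⟨pow_p_A p hc.1, fun s => cm_one s hc⟩
      · exact ⟨pow_p_A p hc.1 ▸ one_mem _, fun s => cm_Z s hc⟩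
      · exact ⟨pow_p p c, fun s => cm_D s c⟩)
    fun s h => show s.a = 0 by
      simpa [cm_c, xb] using congrArg Co.c (cm_eq_one.2 (h (xb T 1 (map_one _)) rfl))
  interval_cases i
  · rcases J.L0 p K T (J.ZX p K T) E M h with e | ⟨h2, m, ha, hb, rfl⟩ | ⟨g, h2, c, hc, rfl⟩
    · exact Or.inr (Or.inl e)
    · exact absurd hE (J.PE p K T h2 F hF m ha hb)
    · exact Or.inr (Or.inr ⟨c, hc, rfl, hem g h2 F hF c hc hE⟩)
  · exact Or.inl ((J.L1 p K T).1 E M h)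
  · exact absurd h ((J.L1 p K T).2 E M)

variable {F E : FusionSystem (⊤ : Subgroup (Co T))}

theorem Ess.two (h : Ess T p) (hF : F.IsSaturated p) (n : NM T (aY F (sA T))) {X : Subgroup (Co T)}
    (hX : F.IsEssential p X) : X = sQ T ∨ X = sA T :=
  (h F hF X hX).imp_right fun k => k.resolve_right fun ⟨c, hc, _, m⟩ => n c hc m

theorem Ess.le (h : Ess T p) (hF : F.IsSaturated p) (n : NM T (aY F (sA T))) (e0 : aY F ⊤ ≤ aY E ⊤)
    (e1 : aY F (sQ T) ≤ aY E (sQ T)) (e2 : aY F (sA T) ≤ aY E (sA T)) : F ≤ E :=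
  le_of_essential ((pgroup_Co p).to_subgroup _) hF fun P k => by
    rcases k with rfl | k
    · exact aut_le' e0
    · rcases h.two hF n k with rfl | rfl
      exacts [aut_le' e1, aut_le' e2]

theorem sat_cj (ap : AP T) (hF : F.IsSaturated p) (θ : MulAut (Co T)) :
    ∃ F' : FusionSystem (⊤ : Subgroup (Co T)), F'.IsSaturated p ∧ (F'.IsRealizable p ↔ F.IsRealizable p) ∧
      aY F' (sQ T) = cjY θ (aY F (sQ T)) ∧ aY F' (sA T) = cjY θ (aY F (sA T)) := by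
  obtain ⟨F', tr, e⟩ := exists_cj F θ
  obtain ⟨-, -, a3, a4⟩ := ap θ (au_aut θ)
  exact ⟨F', tr.symm.isSaturated hF, ⟨tr.isRealizable', tr.symm.isRealizable'⟩, e _ a4, e _ a3⟩

theorem Mv.cj (ap : AP T) (h : Mv T p F) (θ : MulAut (Co T)) :
    ∃ F', Mv T p F' ∧ (F'.IsRealizable p ↔ F.IsRealizable p) ∧
      aY F' (sQ T) = cjY θ (aY F (sQ T)) ∧ aY F' (sA T) = cjY θ (aY F (sA T)) := by
  obtain ⟨F', s, r, e1, e2⟩ := sat_cj ap h.sat θ
  refine ⟨F', ⟨s, e1 ▸ H90.U5.moves (ap θ (au_aut θ)).2.1 h.m1, ?_⟩, r, e1, e2⟩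
  obtain ⟨α, hα, m⟩ := h.m2
  obtain ⟨y, hy, e⟩ := exists_cjY θ hα
  exact ⟨y, e2 ▸ hy, fun k => m ((pz_cj ap e).2 k)⟩

theorem Jobs.oc (J : Jobs.{v}) (s : Sa T p Y) (n : U4.NM T Y) : U4.TI T Y ∧ U4.Oa T Y ∧ U4.Ob T Y ∧ U4.Oc T Y := by
  have ti := J.TI p K T Y s n
  have oa := J.Oa p K T Y s ti
  have fm := J.Fam J.Var p K T Y s oa
  have ob := J.Ob p K T Y s ti oa fm
  exact ⟨ti, oa, ob, J.Oc p K T Y s ti ob fm⟩

/-- the normal form on `A` -/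
theorem stepA (J : Jobs.{v}) (h : Mv T p F) (n : NM T (aY F (sA T))) (hh : HH T (aY F ⊤)) :
    ∃ F', Mv T p F' ∧ NM T (aY F' (sA T)) ∧ (F'.IsRealizable p ↔ F.IsRealizable p) ∧
      aY F' (sQ T) = aY F (sQ T) ∧ St2 T (aY F' (sA T)) := by
  have t := J.ta F h.sat
  obtain ⟨ti, oa, ob, oc⟩ := J.oc t.sa n
  obtain ⟨θ, hθ, ov⟩ := J.O5 p K T _ _ _ t oa ob oc ti hh h.m2
  obtain ⟨F', m, r, e1, e2⟩ := h.cj (J.ap p) θ
  have n' : NM T (aY F' (sA T)) := e2 ▸ n.cj (J.ap p) θ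
  have s := (J.ta F' m.sat).sa
  exact ⟨F', m, n', r, e1.trans (cjY_fix t.l1 hθ), J.O6 p K T _ s (J.oc s n').2.2.2 (e2 ▸ ov)⟩

theorem Jobs.sp (J : Jobs.{v}) (hF : F.IsSaturated p) : Sp T p (gW T (aY F (sQ T))) :=
  J.Bar p K T (J.aS p) (J.A1 p K T) _ _ _ (J.ta F hF)

theorem mover_W (h : ∃ α ∈ aY F (sQ T), ¬ Pr α (sD T)) : ∃ g ∈ gW T (aY F (sQ T)), ¬ PL g := by
  obtain ⟨α, hα, m⟩ := h
  obtain ⟨g, hg, e⟩ := exists_gW (lg_aY _) hα
  exact ⟨g, hg, fun k => m ((pl_iff ((lg_aY _).au α hα) e).1 k)⟩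

theorem Jobs.gn (J : Jobs.{v}) (hb : (2 : K) = 0 ∨ Big T) (hF : F.IsSaturated p)
    (h : ∃ α ∈ aY F (sQ T), ¬ Pr α (sD T)) : U4.Gn T (gW T (aY F (sQ T))) := by
  have s := J.sp hF
  refine J.Gn p K T hb _ s (J.Lo p K T hb _ s ?_) (mover_W h)
  by_cases h2 : (2 : K) = 0
  · exact J.Opp2 p K T h2 _ s
  · exact J.Opp p K T h2 (hb.resolve_left h2) _ s

section Real
variable {G : Type*} [Group G] [Finite G] {ι : Co T →* G}

theorem real_mem (r : Rl T p Γ ι) (hE : E.IsRealizedBy (ι.comp (⊤ : Subgroup (Co T)).subtype))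
    {X : Subgroup (Co T)} {f : Co T → Co T} (pf : Pr f X) (g : G)
    (h : ∀ c ∈ X, g * ι c * g⁻¹ = ι (f c)) : ∃ y ∈ aY E X, ∀ c ∈ X, y c = f c :=
  exists_aY ((real_iff hE r.inj).2 ⟨g, fun c hc => (h c hc).symm⟩) pf

theorem real_st0 (r : Rl T p Γ ι) (hE : E.IsRealizedBy (ι.comp (⊤ : Subgroup (Co T)).subtype)) :
    St0 T Γ (aY E ⊤) := by
  refine fun y => ⟨fun hy => ?_, fun ⟨s, δ, hδ, e⟩ => ?_⟩
  · obtain ⟨g, hg⟩ := (real_iff hE r.inj).1 (mor_aY hy)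
    obtain ⟨s, δ, hδ, h⟩ := r.nor g (mem_normalizer_fintype fun _ ⟨c, hc⟩ => ⟨y c, by rw [hg c trivial, hc]⟩)
    exact ⟨s, δ, hδ, fun c => r.inj (by rw [hg c trivial, h])⟩
  · obtain ⟨g, hg⟩ := r.std δ hδ
    obtain ⟨y', hy', e'⟩ := real_mem r hE (X := ⊤) (f := y) (fun _ _ => trivial) (ι s * g)
      fun c _ => by rw [e, map_mul, map_mul, map_inv, ← hg]; group
    rwa [show y = y' from Equiv.ext fun c => (e' c trivial).symm]

theorem real_om1 (r : Rl T p Γ ι) (hE : E.IsRealizedBy (ι.comp (⊤ : Subgroup (Co T)).subtype)) :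
    Om1 T (gW T (aY E (sQ T))) := by
  rintro x ⟨α, hα, a, e⟩
  obtain ⟨g, hg⟩ := (real_iff hE r.inj).1 (mor_aY hα)
  refine (r.om1 g α a.mem fun u hu => (hg u hu).symm).imp (pl_iff a e).2 fun ⟨b, hb, h⟩ => ⟨b, hb, fun w hw => ?_⟩
  rw [← w1_π (T := T) w, ← e _ (w1_mem w)]
  exact h _ ⟨hw, rfl⟩

end Real

/-- no movers that commute with an element of `U` when the torus is present -/
def HN (T : BF K) (p : ℕ) : Prop := ∀ E : FusionSystem (⊤ : Subgroup (Co T)), E.IsSaturated p →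
  (∀ s : Kˣ, ∃ y ∈ aY E ⊤, ∀ u, y u = sd T (SemidirectProduct.inl (t2 s)) u) → NM T (aY E (sA T))

theorem stepD (J : Jobs.{v}) (es : Ess T p) (hn : HN T p) (h : F.IsSaturated p) (n : NM T (aY F (sA T)))
    (s1 : St1 T (gW T (aY F (sQ T)))) (n1 : N1 T (aY F (sQ T))) (s2 : St2 T (aY F (sA T))) :
    F.IsRealizable p := by
  have t := J.ta F h
  obtain ⟨Γ, c, s0, tor⟩ := J.Rig p K T (J.aS p) _ _ _ t s1 n1 s2
  obtain ⟨G, _, _, ι, r⟩ := J.Real p K T Γ c tor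
  obtain ⟨S, hS⟩ := r.syl
  have hS' : (S : Subgroup G) = (ι.comp (⊤ : Subgroup (Co T)).subtype).range := by
    rw [hS]
    exact le_antisymm (fun _ ⟨c, e⟩ => ⟨⟨c, trivial⟩, e⟩) fun _ ⟨c, e⟩ => ⟨_, e⟩
  obtain ⟨E, hE, re⟩ := H9.exists_pull (r.inj.comp (subtype_injective _)) S hS'
  have s0' := real_st0 r re
  have e0 : aY E ⊤ = aY F ⊤ := Subgroup.ext fun y => (s0' y).trans (s0 y).symm
  have t' := J.ta E hE
  have n' := hn E hE fun s => ⟨(sdH T (SemidirectProduct.inl (t2 s))).toEquiv,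
    (s0' _).2 ⟨1, _, tor.2 s, fun u => by simp [sdH_apply]⟩, fun _ => rfl⟩
  have n1' : N1 T (aY E (sQ T)) := r.n1.elim fun g => real_mem r re au_nu1.mem g
  obtain ⟨ν, hν, e⟩ := r.n2.elim fun g => real_mem r re au_nu2.mem g
  have s2' : St2 T (aY E (sA T)) := J.O6 p K T _ t'.sa (J.oc t'.sa n').2.2.2 ⟨ν, hν, fun z hz => by
      obtain ⟨a, -, c, d⟩ := nu2_A hz.1
      rw [e z hz.1]
      exact ⟨a, by rw [c, hz.2.2]; simp, d.trans hz.2.1⟩,
    fun w hw => by rw [e w hw.1]; exact ⟨rfl, hw.2⟩⟩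
  rw [e0] at t'
  exact real_of_le (es.le h n e0.ge (det1 s1.om t t' n1 n1') (det2 s2 s2' t t'))
    (es.le hE n' e0.le (det1 (real_om1 r re) t' t n1' n1) (det2 s2' s2 t' t)) (H9.isRealizable_of re S hS')

theorem stepB (J : Jobs.{v}) (es : Ess T p) (hn : HN T p) (hp : Pm T ∨ G2 T) (h : Mv T p F)
    (n : NM T (aY F (sA T))) (g : Gn T (gW T (aY F (sQ T)))) : F.IsRealizable p := by
  have ap := (J.ap p : AP T)
  obtain ⟨γ, hγ, s⟩ := g
  obtain ⟨θ, -, hθ⟩ := exists_thG (T := T) γ hγ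
  obtain ⟨F1, m1, r1, e1, e1'⟩ := h.cj ap θ
  rw [← gW_cjY (ap θ (au_aut θ)).2.2.2 fun u _ => (hθ u).2, ← e1] at s
  obtain ⟨η, hη, n1⟩ := J.N1 p K T (J.aS p) (hp.imp_left (J.In p K T)) _ _ _ (J.ta F1 m1.sat) s
  obtain ⟨F2, m2, r2, e2, e2'⟩ := m1.cj ap η
  rw [← cW_one (gW T _), ← gW_cjY (x := 1) (ap η (au_aut η)).2.2.2 fun u _ => hη u, ← e2] at s
  obtain ⟨F3, m3, n3, r3, e3, s2⟩ := stepA J m2 (by rw [e2', e1']; exact (n.cj ap θ).cj ap η)
    (hh_of ap (J.ta F2 m2.sat) s hp)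
  exact r1.1 (r2.1 (r3.1 (stepD J es hn m3.sat n3 (e3 ▸ s) (by rw [e3, e2]; exact n1) s2)))

theorem core (J : Jobs.{v}) (es : Ess T p) (hF : F.IsSaturated p) (n : NM T (aY F (sA T)))
    (h : Mv T p F → F.IsRealizable p) : F.IsRealizable p := by
  have hP : IsPGroup p (⊤ : Subgroup (Co T)) := (pgroup_Co p).to_subgroup _
  have ap := (J.ap p : AP T)
  have t := J.ta F hF
  have nrm : ∀ X : Subgroup (Co T), (∀ θ, Au ⊤ θ → Pr θ X) → (∀ E, F.IsEssential p E → E = X) → F.IsNormal X :=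
    fun X hX hE => isNormal_of_essential hP hF fun P h => by
      rcases h with rfl | h
      · exact ⟨le_top, fun α _ => hX _ (au_af α)⟩
      · obtain rfl := hE P h
        exact ⟨le_rfl, fun α _ _ => af_mem α⟩
  by_cases m1 : ∀ α ∈ aY F (sQ T), Pr α (sD T)
  · exact H9.isRealizable_of_isNormal hP hF (nrm _ (fun θ h => (ap θ h).2.2.1) fun E h =>
      (es.two hF n h).resolve_left fun e => not_ess hP hF (fun α hα => t.ext1 α hα (m1 α hα)) (e ▸ h)) cen_A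
  by_cases m2 : ∀ α ∈ aY F (sA T), PZ T α
  · exact H9.isRealizable_of_isNormal hP hF (nrm _ (fun θ h => (ap θ h).2.2.2) fun E h =>
      (es.two hF n h).resolve_right fun e => not_ess hP hF (fun α hα => t.ext2 α hα (m2 α hα)) (e ▸ h)) cen_Q
  push Not at m1 m2
  exact h ⟨hF, m1, m2⟩

theorem Jobs.nm (J : Jobs.{v}) (h : (2 : K) = 0 → G2 T) (hF : F.IsSaturated p) : U4.NM T (aY F (sA T)) :=
  J.NM p K T (fun h2 => ⟨h h2, J.ZX p K T h2 (h h2)⟩) _ (J.ta F hF).sa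

/-- more than three elements in the fixed field -/
theorem big (J : Jobs.{v}) (hb : Big T) (hF : F.IsSaturated p) : F.IsRealizable p := by
  have g : G2 T := hb.imp fun _ h => ⟨h.1, h.2.1, h.2.2.1⟩
  have es : Ess T p := J.ess fun k => absurd g k
  have n := J.nm (fun _ => g) hF
  exact core J es hF n fun m => stepB J es (fun E hE _ => J.nm (fun _ => g) hE) (Or.inr g) m n
    (J.gn (Or.inr hb) hF m.m1)

/-- over a prime field the group on `W` determines the system -/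
theorem same (J : Jobs.{v}) (h2 : (2 : K) ≠ 0) (pm : Pm T) (hF : Mv T p F) (hE : Mv T p E)
    (e : gW T (aY F (sQ T)) = gW T (aY E (sQ T))) (r : E.IsRealizable p) : F.IsRealizable p := by
  have ap := (J.ap p : AP T)
  have es : Ess T p := J.ess fun _ k => absurd k h2
  have k : ∀ F E : FusionSystem (⊤ : Subgroup (Co T)), E.IsSaturated p →
      gW T (aY F (sQ T)) = gW T (aY E (sQ T)) → aY F (sQ T) ≤ aY E (sQ T) := fun F E hE e α hα => by
    obtain ⟨g, hg, eg⟩ := exists_gW (lg_aY _) hα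
    obtain ⟨β, hβ, b, eb⟩ := e ▸ hg
    have a := (lg_aY _).au α hα
    obtain ⟨s, -, hs⟩ := J.In p K T pm (fun u => α (β⁻¹ u)) (a.comp (au_inv b)) fun u hu => by
      rw [eg _ ((au_inv b).mem u hu), ← eb _ ((au_inv b).mem u hu), Equiv.Perm.coe_inv, Equiv.apply_symm_apply]
    obtain ⟨γ, hγ, f⟩ := H90.U5.conj_aY (X := sQ T) E s
    exact lg_mem (lg_aY _) (lg_aY _) hα (mul_mem hγ hβ) fun c hc => by
      rw [Equiv.Perm.mul_apply, f _ (b.mem c hc), ← hs _ (b.mem c hc), Equiv.Perm.coe_inv, Equiv.symm_apply_apply]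
  obtain ⟨F', m, n, q, e1, s⟩ := stepA J hF (J.nm (absurd · h2) hF.sat) (Or.inl pm)
  obtain ⟨E', m', n', q', e1', s'⟩ := stepA J hE (J.nm (absurd · h2) hE.sat) (Or.inl pm)
  have e2 : aY E' (sQ T) = aY F' (sQ T) :=
    e1'.trans ((le_antisymm (k E F hF.sat e.symm) (k F E hE.sat e)).trans e1.symm)
  have t := J.ta F' m.sat
  have t' := J.ta E' m'.sat
  rw [e2] at t'
  have e0 := le_antisymm (eq0 ap t t' s s') (eq0 ap t' t s' s)
  rw [← e0] at t'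
  exact q.1 (real_of_le (es.le m.sat n e0.le e2.ge (det2 s s' t t'))
    (es.le m'.sat n' e0.ge e2.le (det2 s' s t' t)) (q'.2 r))

/-- the torus of the other side, up to an outer unipotent map -/
theorem tau (J : Jobs.{v}) (h2 : (2 : K) ≠ 0) (pm : Pm T) (hF : Mv T p F) (x : Kˣ) :
    ∃ γ, tg T γ * sdW T (SemidirectProduct.inl (t2 x)) ∈ gW T (aY F (sQ T)) := by
  obtain ⟨F', m, -, -, e1, s⟩ := stepA J hF (J.nm (absurd · h2) hF.sat) (Or.inl pm)
  rw [← e1]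
  have t := J.ta F' m.sat
  have sp := J.sp m.sat
  obtain ⟨α, hα, e⟩ := s.tor x
  obtain ⟨y, hy, f⟩ := t.ext2 α hα ⟨fun u hu => e u hu.1 ▸ pr_sd _ _ (by simp) u hu,
    fun u hu => e u hu.1 ▸ pr_sd _ _ (by simp) u hu⟩
  have q : ∀ u ∈ sA T, y u = sd T (SemidirectProduct.inl (t2 x)) u := fun u hu => (f u hu).symm.trans (e u hu)
  obtain ⟨δ, g1, g2, -⟩ := (J.aS p).2 y (t.l0.au y hy)
  obtain ⟨β, hβ, fb⟩ := t.res1 y hy
  obtain ⟨g, hg, eg⟩ := exists_gW t.l1 hβ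
  have c2 : ∀ c, g (0, c) = sdW T (SemidirectProduct.inl (t2 x)) (0, c) := fun c => by
    have := eg (xc T c) rfl
    rw [fb _ rfl, q _ rfl, sd_π] at this
    exact this.symm
  have hb := (g1 (xb T 1 (map_one _))).2
  have hc := fun c => g2 (xc T c) ⟨rfl, rfl⟩
  simp only [q _ (show xb T 1 (map_one _) ∈ sA T from rfl), q _ (show xc T _ ∈ sA T from rfl), sd_b, sd_c] at hb hc
  simp only [xb, xc, map_one, mul_one, SemidirectProduct.left_inl, SemidirectProduct.right_inl,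
    RingAut.one_apply] at hb hc
  have n0 : ((t2 x).2 : K) * T.σ (t2 x).2 ≠ 0 := by simp
  have c1 : ∀ a, (g (a, 0)).1 = (t2 x).1 * a := fun a => by
    have := congrArg Prod.fst (eg (xa T a) rfl)
    rw [fb _ rfl] at this
    refine this.symm.trans ((g1 _).1.trans (mul_right_cancel₀ n0 ?_))
    rw [sd_a, show (xa T a).a = a from rfl]
    linear_combination -hc a + δ.left.1 * δ.right a * hb
  obtain ⟨b, γ, δ', hb', -, rfl⟩ := sp.nor g hg fun w hw => by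
    rw [show w = (0, w.2) from Prod.ext hw rfl, c2]; simp [sdW_apply]
  refine ⟨γ, ?_⟩
  have := mul_mem (inv_mem (sp.uu b hb')) hg
  rwa [mul_assoc, inv_mul_cancel_left, show sdW T δ' = sdW T (SemidirectProduct.inl (t2 x)) from
    Equiv.ext fun w => Prod.ext (c1 w.1) (by simpa [ub_apply, tg_apply, sdW_apply] using c2 w.2)] at this

end Co

end H28.U4
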