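/- U4 tower (row S5210): the assembly, small fields. -/
import Cfsg.Agent.H28.U4Asm

set_option autoImplicit false
set_option linter.unusedSectionVars false
set_option linter.unusedSimpArgs false
set_option linter.unusedVariables false

open Subgroup H92 Cfsg H90.RF
open H90.U5 (BF DD)

universe u v

namespace H28.U4

/-- the slots for the small fields -/
structure Jobs0 : Prop where
  EM : JobEM
  Qa : JobQa
  Qb : JobQb
  Qm : JobQm
  Qi : JobQi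
  Qc : JobQc
  Qd : JobQd
  X3 : JobX3

theorem pm9 : Pm T9 := fun l hl =>
  ((by decide : ∀ l : F9, T9.σ l = l → l = (0 : ℕ) ∨ l = (1 : ℕ) ∨ l = (2 : ℕ)) l hl).elim (⟨_, ·⟩)
    fun h => h.elim (⟨_, ·⟩) (⟨_, ·⟩)

theorem pm4 : Pm T4 := fun l hl =>
  ((by decide : ∀ l : F4, T4.σ l = l → l = (0 : ℕ) ∨ l = (1 : ℕ)) l hl).elim (⟨_, ·⟩) (⟨_, ·⟩)

theorem two9 : (2 : F9) ≠ 0 := by decide
theorem two4 : (2 : F4) = 0 := by decide

instance fact3 : Fact (Nat.Prime 3) := ⟨Nat.prime_three⟩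

theorem tau4 (γ : F9) (s : F9ˣ) : (tg T9 γ * sdW T9 (SemidirectProduct.inl (t2 s))) ^ 4 = tg T9 γ := by
  have k : ∀ s s' : F9, s * s' = 1 → (s ^ 2) ^ 4 = 1 ∧ (s ^ 2 * (s' * T9.σ s')) ^ 4 = 1 ∧
      s ^ 2 * (s' * T9.σ s') = T9.σ (s ^ 2) := by decide
  obtain ⟨k1, k2, k3⟩ := k s (s⁻¹ : F9ˣ) s.mul_inv
  have c : Commute (tg T9 γ) (sdW T9 (SemidirectProduct.inl (t2 s))) := Equiv.ext fun w => by
    simp only [Equiv.Perm.mul_apply, tg_apply, sdW_apply, t2, SemidirectProduct.left_inl,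
      SemidirectProduct.right_inl, RingAut.one_apply, Units.val_pow_eq_pow_val, k3, map_mul]
    ext1
    · rfl
    · ring
  have o : sdW T9 (SemidirectProduct.inl (t2 s)) ^ 4 = 1 := Equiv.ext fun w => by
    simp only [pow_succ, pow_zero, one_mul, Equiv.Perm.mul_apply, sdW_apply, t2, SemidirectProduct.left_inl,
      SemidirectProduct.right_inl, RingAut.one_apply, Units.val_mul, Equiv.Perm.one_apply]
    ext1
    · linear_combination w.1 * k1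
    · linear_combination w.2 * k2
  rw [c.mul_pow, o, mul_one, tg_pow, show ((4 : ℕ) : F9) = 1 by decide, one_mul]

theorem h3 (J : Jobs.{0}) : H3 where
  aS := J.aS 3
  ta := J.ta
  inn := J.In 3 _ T9 pm9
  sp := fun _ hF => J.sp hF
  tau := fun F hF s => by
    obtain ⟨γ, h⟩ := tau J two9 pm9 hF s
    have k := pow_mem h 4
    rw [tau4] at k
    exact (Subgroup.mul_mem_cancel_left _ k).1 h
  cj := fun F hF θ x e => by
    obtain ⟨F', m, r, e1, -⟩ := hF.cj (J.ap 3) θ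
    exact ⟨F', m, r, e1 ▸ gW_cjY (J.ap 3 θ (au_aut θ)).2.2.2 e _⟩
  same := fun _ _ hF hE => same J two9 pm9 hF hE

theorem nine (J : Jobs.{0}) (X : JobX3) {F : FusionSystem (⊤ : Subgroup (Co T9))} (hF : F.IsSaturated 3) :
    F.IsRealizable 3 := by
  have es : Ess T9 3 := J.ess fun _ k => absurd k two9
  have n := J.nm (absurd · two9) hF
  refine core J es hF n fun m => ?_
  by_cases g : Gn T9 (gW T9 (aY F (sQ T9)))
  · exact stepB J es (fun E hE _ => J.nm (absurd · two9) hE) (Or.inl pm9) m n g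
  · exact X (h3 J) F m g

theorem h2 (J : Jobs.{0}) (J0 : Jobs0) : H2 where
  aS := J.aS 2
  ta := J.ta
  ess := J.ess fun _ _ => J0.EM
  inn := J.In 2 _ T4 pm4
  qi := J0.Qi (J.aS 2) J.ta
  st := fun F hF m => by
    obtain ⟨γ, hγ, s⟩ := J.gn (Or.inl two4) hF m
    rwa [hγ two4, tg_zero, cW_one] at s

variable {F : FusionSystem (⊤ : Subgroup (Co T4))}

/-- the normal form of the first mover -/
theorem normR (J : Jobs.{0}) (J0 : Jobs0) (hF : F.IsSaturated 2) (m : Mc T4 1 (aY F (sA T4))) :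
    ∃ F' : FusionSystem (⊤ : Subgroup (Co T4)), F'.IsSaturated 2 ∧ (F'.IsRealizable 2 → F.IsRealizable 2) ∧
      Hs r1 (aY F' (sA T4)) ∧ ∀ c, Mc T4 c (aY F (sA T4)) → Mc T4 c (aY F' (sA T4)) := by
  rcases (J0.Qa _ (J.ta F hF).sa).1 m with h | ⟨α, hα, h⟩
  · exact ⟨F, hF, id, h, fun _ => id⟩
  obtain ⟨θ, hθ⟩ := exists_thC (T := T4) 0 id (by simp) (by simp) (fun _ _ _ _ => rfl) fun _ h => h
  have e : ∀ u ∈ sA T4, θ u = th u := fun u hu => by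
    obtain ⟨a, b, c, d⟩ := hθ u
    have k : ∀ u : Co T4, u.a = 0 → u.b = (th u).b ∧ u.d + 0 + u.b = (th u).d ∧ th (th u) = u := by decide
    exact Co.ext (a.trans hu) (b.trans (k u hu).1) c (d.trans (k u hu).2.1)
  obtain ⟨F', s, r, -, e2⟩ := sat_cj (J.ap 2) hF θ
  obtain ⟨y, hy, f⟩ := exists_cjY θ hα
  refine ⟨F', s, r.1, ⟨y, e2 ▸ hy, fun u hu => θ.injective ?_⟩, fun c k => ?_⟩
  · have k : ∀ u : Co T4, u.a = 0 → th (th u) = u := by decide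
    rw [← f, e u hu, h _ rfl, e _ rfl]
    exact congrArg (fun w => th (r1 w)) (k u hu)
  · rw [e2, mc_cj (J.ap 2), (hθ _).1]
    exact k

theorem hn4 (J : Jobs.{0}) (J0 : Jobs0) : HN T4 2 := fun E hE h c hc m => by
  have k : ∀ c', c' ≠ 0 → Mc T4 c' (aY E (sA T4)) := fun c' hc' => by
    obtain ⟨s, hs, e⟩ := (by decide : ∀ c c' : F4, c ≠ 0 → c' ≠ 0 → ∃ s : F4, s ≠ 0 ∧ s ^ 2 * c = c') c c' hc hc'
    obtain ⟨y, hy, f⟩ := h (Units.mk0 s hs)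
    have := m.res (J.ap 2) (J.ta E hE) hy
    rw [f] at this
    exact e ▸ this
  obtain ⟨F', s, -, h1, f⟩ := normR J J0 hE (k 1 one_ne_zero)
  have q := J0.Qa _ (J.ta F' s).sa
  exact q.2.2 h1 (q.2.1 h1 (f _ (k _ (by decide)))) (f _ (k _ (by decide)))

theorem four (J : Jobs.{0}) (J0 : Jobs0) (hF : F.IsSaturated 2) : F.IsRealizable 2 := by
  have H := h2 J J0
  by_cases n : NM T4 (aY F (sA T4))
  · exact core J H.ess hF n fun m =>
      stepB J H.ess (hn4 J J0) (Or.inl pm4) m n (J.gn (Or.inl two4) hF m.m1)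
  simp only [NM, not_forall, not_not] at n
  obtain ⟨c0, h0, m0⟩ := n
  by_cases u : ∀ c, c ≠ 0 → Mc T4 c (aY F (sA T4)) → c = c0
  · exact J0.Qc H F hF c0 h0 m0 u
  push Not at u
  obtain ⟨c1, h1, m1, ne⟩ := u
  obtain ⟨x, hx, e⟩ := (by decide : ∀ c0 c1 : F4, c0 ≠ 0 → c1 ≠ 0 → c1 ≠ c0 →
    ∃ x : F4, x ≠ 0 ∧ ((x * 1 = c0 ∧ x * om = c1) ∨ (x * 1 = c1 ∧ x * om = c0))) c0 c1 h0 h1 ne
  obtain ⟨F1, s1, r1, -, e1⟩ := sat_cj (J.ap 2) hF (sdH T4 (SemidirectProduct.inl (Units.mk0 x hx, 1)))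
  have k : ∀ c, Mc T4 (x * c) (aY F (sA T4)) → Mc T4 c (aY F1 (sA T4)) := fun c h => by
    rw [e1, mc_cj (J.ap 2)]; exact h
  have k1 : Mc T4 1 (aY F1 (sA T4)) ∧ Mc T4 om (aY F1 (sA T4)) := by
    rcases e with ⟨a, b⟩ | ⟨a, b⟩
    exacts [⟨k _ (a ▸ m0), k _ (b ▸ m1)⟩, ⟨k _ (a ▸ m1), k _ (b ▸ m0)⟩]
  obtain ⟨F2, s2, r2, h, f⟩ := normR J J0 s1 k1.1
  exact r1.1 (r2 (J0.Qd H J0.Qa J0.Qb J0.Qm F2 s2 h ((J0.Qa _ (J.ta F2 s2).sa).2.1 h (f _ k1.2))))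

theorem main (J : Jobs.{v}) (J' : Jobs.{0}) (J0 : Jobs0) (JM : JobModel.{v}) (JT : JobTr.{v})
    {Ω : Type u} [Group Ω] {S : Subgroup Ω} (p : ℕ) [Fact p.Prime]
    (F : FusionSystem S) (hF : F.IsSaturated p) {K : Type v} [Field K] [Fintype K] [CharP K p] (n : ℕ)
    (hn : 1 ≤ n) (hK : Fintype.card K = (p ^ n) ^ 2) (S0 : Sylow p (PSU 4 K (p ^ n)))
    (e : S ≃* (S0 : Subgroup (PSU 4 K (p ^ n)))) : F.IsRealizable p := by
  obtain ⟨T, ⟨e'⟩⟩ := JM p K n hn hK S0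
  by_cases hb : Big T
  · exact transfer hF (e.trans e') fun E hE => big J hb hE
  rcases JT p K T hb with ⟨rfl, ⟨f⟩⟩ | ⟨rfl, ⟨f⟩⟩
  · exact transfer hF ((e.trans e').trans f) fun E hE => four J' J0 hE
  · exact transfer hF ((e.trans e').trans f) fun E hE => nine J' J0.X3 hE

end H28.U4
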