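/- U4 tower (row S5210): all slots collected; the row follows from the chapter `q = 3`. -/
import Cfsg.Agent.H28.U4Top
import Cfsg.Agent.H10.U4Real
import Cfsg.Agent.H8.U4PE
import Cfsg.Agent.H4.U4AS
import Cfsg.Agent.H74.U4L0
import Cfsg.Agent.H99.U4O6
import Cfsg.Agent.H74.U4O5
import Cfsg.Agent.H20.U4Rig
import Cfsg.Agent.H81.U4N1
import Cfsg.Agent.H81.U4Opp
import Cfsg.Agent.H76.U4Fam
import Cfsg.Agent.H76.U4Oa
import Cfsg.Agent.H76.U4Ob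
import Cfsg.Agent.H10.U4Bar
import Cfsg.Agent.H92.U4Qi
import Cfsg.Agent.H92.U4Qc
import Cfsg.Agent.H54.U4Model
import Cfsg.Agent.H4.U4Tri
import Cfsg.Agent.H95.U4ZX
import Cfsg.Agent.H55.U4TI
import Cfsg.Agent.H55.U4AP
import Cfsg.Agent.H58.U4A1
import Cfsg.Agent.H95.U4Opp2
import Cfsg.Agent.H8.U4EM
import Cfsg.Agent.H39.U4Lo
import Cfsg.Agent.H88.U4Qm

set_option autoImplicit false

open Cfsg

universe u v

namespace H28.U4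

theorem jobs : Jobs.{v} where
  ZX := H95.U4Z.jobZX
  L0 := H74.U4L.jobL0
  L1 := H55.U4AP.jobL1
  PE := H8.U4PE.jobPE
  AP := H55.U4AP.jobAP
  AS := H4.U4AS.jobAS
  A1 := H58.U4A1.jobA1
  In := H58.U4A1.jobIn
  Tri := H4.U4Tri.jobTri
  NM := H95.U4Z.jobNM
  TI := H55.U4TI.jobTI
  Oa := H76.U4O.jobOa
  Var := H55.U4TI.jobVar
  Fam := H76.U4O.jobFam
  Ob := H76.U4O.jobOb
  Oc := H76.U4O.jobOc
  O5 := H74.U4O.jobO5
  O6 := H99.U4O6.jobO6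
  Bar := H10.U4B.jobBar
  Opp2 := H95.U4O.jobOpp2
  Opp := H81.U4Opp.jobOpp
  Lo := H39.U4Lo.jobLo
  Gn := H95.U4O.jobGn
  N1 := H81.U4N1.jobN1
  Rig := H20.U4R.jobRig
  Real := H10.U4R.jobReal

theorem of_x3 (X : JobX3) {Ω : Type u} [Group Ω] {S : Subgroup Ω} (p : ℕ) [Fact p.Prime]
    (F : FusionSystem S) (hF : F.IsSaturated p) {K : Type v} [Field K] [Fintype K] [CharP K p] (n : ℕ)
    (hn : 1 ≤ n) (hK : Fintype.card K = (p ^ n) ^ 2) (S0 : Sylow p (PSU 4 K (p ^ n)))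
    (e : S ≃* (S0 : Subgroup (PSU 4 K (p ^ n)))) : F.IsRealizable p :=
  main jobs jobs ⟨H8.U4EM.jobEM, H88.U4Q.jobQa, H88.U4Q.jobQb, H88.U4Q.jobQm, H92.U4Q.jobQi, H92.U4Q.jobQc,
    H92.U4Q.jobQd, X⟩ H54.U4.jobModel H8.U4EM.jobTr p F hF n hn hK S0 e

end H28.U4
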